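import Mathlib

/-!
# Bounding the chief factors of `p`-power order along a normal series

`ChiefBd p M N`: every chief factor `H/K` of `X` with `M ≤ K < H ≤ N` whose order is a power
`p ^ n` has `n ≤ 2`.  Gluing along normal series, transfer to quotients, and two base cases.
-/

set_option autoImplicit false

namespace Cfsg.Agent.Lib.Helper32

open Subgroup

/-- All chief factors of `p`-power order between `M` and `N` have order at most `p ^ 2`. -/
def ChiefBd (p : ℕ) {X : Type*} [Group X] (M N : Subgroup X) : Prop :=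
  ∀ H K : Subgroup X, H.Normal → K.Normal → M ≤ K → K < H → H ≤ N →
    (∀ L : Subgroup X, L.Normal → K ≤ L → L ≤ H → L = K ∨ L = H) →
    ∀ n : ℕ, K.relIndex H = p ^ n → n ≤ 2

theorem chiefBd_of_not_dvd {p : ℕ} {X : Type*} [Group X] (M N : Subgroup X)
    (h : ¬ p ^ 3 ∣ M.relIndex N) : ChiefBd p M N := by
  intro H K _ _ hMK hKH hHN _ n hn
  by_contra hcon
  push_neg at hcon
  apply h
  have h1 : K.relIndex H ∣ M.relIndex H := relIndex_dvd_of_le_left H hMK
  have h2 : M.relIndex H * H.relIndex N = M.relIndex N :=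
    relIndex_mul_relIndex M H N (hMK.trans hKH.le) hHN
  have h3 : p ^ 3 ∣ K.relIndex H := by rw [hn]; exact pow_dvd_pow p hcon
  exact (h3.trans h1).trans (h2 ▸ dvd_mul_right _ _)

/-- Dedekind's modular law for a normal subgroup. -/
theorem inf_sup_eq_of_le {X : Type*} [Group X] {H K N : Subgroup X} [N.Normal] (hKH : K ≤ H) :
    H ⊓ (K ⊔ N) = K ⊔ (H ⊓ N) := by
  apply le_antisymm
  · intro x hx
    obtain ⟨hxH, hxKN⟩ := hx
    have h1 : x ∈ ((K ⊔ N : Subgroup X) : Set X) := hxKN
    rw [mul_normal] at h1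
    obtain ⟨k, hk, n, hn, rfl⟩ := h1
    have hnH : n ∈ H := by
      have h2 : n = k⁻¹ * (k * n) := by group
      rw [h2]
      exact H.mul_mem (H.inv_mem (hKH hk)) hxH
    exact (K ⊔ (H ⊓ N)).mul_mem (mem_sup_left hk) (mem_sup_right ⟨hnH, hn⟩)
  · exact le_inf (sup_le hKH inf_le_left) (sup_le_sup_left inf_le_right K)

theorem ChiefBd.trans {p : ℕ} {X : Type*} [Group X] {M N L : Subgroup X} [hN : N.Normal]
    (hMN : M ≤ N) (hNL : N ≤ L) (h1 : ChiefBd p M N) (h2 : ChiefBd p N L) : ChiefBd p M L := by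
  intro H K hH hK hMK hKH hHL hchief n hn
  haveI := hH
  haveI := hK
  by_cases hc : H ⊓ N ≤ K
  · -- the factor lives above `N`
    have hinf : H ⊓ (K ⊔ N) = K := by
      rw [inf_sup_eq_of_le hKH.le]
      exact sup_eq_left.2 hc
    refine h2 (H ⊔ N) (K ⊔ N) inferInstance inferInstance le_sup_right ?_ (sup_le hHL hNL) ?_ n ?_
    · refine lt_of_le_of_ne (sup_le_sup_right hKH.le N) ?_
      intro heq
      have h3 : H ≤ K ⊔ N := heq ▸ le_sup_left
      have h4 : H ≤ K := by
        rw [← hinf]
        exact le_inf le_rfl h3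
      exact (not_le_of_gt hKH) h4
    · intro L' hL' hKL' hL'H
      haveI := hL'
      have hNL' : N ≤ L' := le_sup_right.trans hKL'
      rcases hchief (L' ⊓ H) inferInstance (le_inf (le_sup_left.trans hKL') hKH.le)
        inf_le_right with h | h
      · left
        have h5 : L' = L' ⊓ (N ⊔ H) := (inf_eq_left.2 (by rw [sup_comm]; exact hL'H)).symm
        rw [h5, inf_sup_eq_of_le hNL', h, sup_comm]
      · right
        have h5 : H ≤ L' := h ▸ inf_le_left
        exact le_antisymm hL'H (sup_le h5 hNL')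
    · have e1 : H ⊔ N = H ⊔ (K ⊔ N) := by rw [← sup_assoc, sup_eq_left.2 hKH.le]
      rw [e1, relIndex_sup_right, ← inf_relIndex_left, hinf]
      exact hn
  · -- the factor lives below `N`
    have hsup : (H ⊓ N) ⊔ K = H := by
      rcases hchief ((H ⊓ N) ⊔ K) inferInstance le_sup_right (sup_le inf_le_left hKH.le)
        with h | h
      · exact absurd (h ▸ le_sup_left) hc
      · exact h
    refine h1 (H ⊓ N) (K ⊓ N) inferInstance inferInstance (le_inf hMK hMN) ?_ inf_le_right ?_ n ?_
    · refine lt_of_le_of_ne (inf_le_inf_right N hKH.le) ?_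
      intro heq
      exact hc (heq ▸ inf_le_left)
    · intro L' hL' hKL' hL'H
      haveI := hL'
      rcases hchief (L' ⊔ K) inferInstance le_sup_right
        (sup_le (hL'H.trans inf_le_left) hKH.le) with h | h
      · left
        exact le_antisymm (le_inf (h ▸ le_sup_left) (hL'H.trans inf_le_right)) hKL'
      · right
        have h5 : N ⊓ (L' ⊔ K) = L' ⊔ (N ⊓ K) := inf_sup_eq_of_le (hL'H.trans inf_le_right)
        rw [h] at h5
        rw [inf_comm, h5]
        symm
        rw [sup_eq_left, inf_comm]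
        exact hKL'
    · have e1 : K ⊓ N = K ⊓ (H ⊓ N) := by rw [← inf_assoc, inf_eq_left.2 hKH.le]
      rw [e1, inf_relIndex_right, ← relIndex_sup_right (K := K) (H := H ⊓ N), hsup]
      exact hn

theorem chiefBd_of_quotient {p : ℕ} {X : Type*} [Group X] (W T : Subgroup X) [W.Normal]
    (h : ChiefBd p (⊥ : Subgroup (X ⧸ W)) (T.map (QuotientGroup.mk' W))) : ChiefBd p W T := by
  intro H K hH hK hWK hKH hHT hchief n hn
  have hker : (QuotientGroup.mk' W).ker = W := QuotientGroup.ker_mk' W
  have hsurj := QuotientGroup.mk'_surjective W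
  have hcomap : ∀ A : Subgroup X, W ≤ A →
      (A.map (QuotientGroup.mk' W)).comap (QuotientGroup.mk' W) = A := by
    intro A hA
    rw [comap_map_eq, hker, sup_eq_left.2 hA]
  refine h (H.map _) (K.map _) (hH.map _ hsurj) (hK.map _ hsurj) bot_le ?_ (map_mono hHT) ?_ n ?_
  · refine lt_of_le_of_ne (map_mono hKH.le) ?_
    intro heq
    have h1 := congrArg (comap (QuotientGroup.mk' W)) heq
    rw [hcomap K hWK, hcomap H (hWK.trans hKH.le)] at h1
    exact hKH.ne h1
  · intro L hL hKL hLH
    have h1 : K ≤ L.comap (QuotientGroup.mk' W) := map_le_iff_le_comap.1 hKL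
    have h2 : L.comap (QuotientGroup.mk' W) ≤ H := by
      have h3 := comap_mono (f := QuotientGroup.mk' W) hLH
      rwa [hcomap H (hWK.trans hKH.le)] at h3
    rcases hchief _ (hL.comap _) h1 h2 with h3 | h3
    · left
      rw [← map_comap_eq_self_of_surjective hsurj L, h3]
    · right
      rw [← map_comap_eq_self_of_surjective hsurj L, h3]
  · rw [relIndex_map_map, hker, sup_eq_left.2 hWK, sup_eq_left.2 (hWK.trans hKH.le)]
    exact hn

/-- If every subgroup between `M` and `N` is normal, the chief factors of `p`-power order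
between them have order `p`. -/
theorem chiefBd_of_forall_normal {p : ℕ} [hp : Fact p.Prime] {X : Type*} [Group X] [Finite X]
    (M N : Subgroup X) (hall : ∀ L : Subgroup X, M ≤ L → L ≤ N → L.Normal) : ChiefBd p M N := by
  intro H K hH hK hMK hKH hHN hchief n hn
  haveI := hH
  haveI := hK
  by_contra hcon
  push_neg at hcon
  have hcard : Nat.card (↥H ⧸ K.subgroupOf H) = p ^ n := by
    rw [← hn]
    rfl
  obtain ⟨q, hq⟩ := exists_prime_orderOf_dvd_card' (G := ↥H ⧸ K.subgroupOf H) p
    (by rw [hcard]; exact dvd_pow_self p (by omega))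
  obtain ⟨x, rfl⟩ := QuotientGroup.mk'_surjective _ q
  set L' : Subgroup H :=
    (zpowers (QuotientGroup.mk' (K.subgroupOf H) x)).comap (QuotientGroup.mk' (K.subgroupOf H))
    with hL'
  have hKL : K ≤ L'.map H.subtype := by
    intro k hk
    refine ⟨⟨k, hKH.le hk⟩, ?_, rfl⟩
    rw [hL']
    show QuotientGroup.mk' (K.subgroupOf H) ⟨k, hKH.le hk⟩ ∈
      zpowers (QuotientGroup.mk' (K.subgroupOf H) x)
    have h1 : QuotientGroup.mk' (K.subgroupOf H) ⟨k, hKH.le hk⟩ = 1 :=
      (QuotientGroup.eq_one_iff _).2 (mem_subgroupOf.2 hk)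
    rw [h1]
    exact one_mem _
  have hLH : L'.map H.subtype ≤ H := map_subtype_le L'
  rcases hchief _ (hall _ (hMK.trans hKL) (hLH.trans hHN)) hKL hLH with h | h
  · have h1 : (x : X) ∈ L'.map H.subtype := ⟨x, mem_zpowers _, rfl⟩
    rw [h] at h1
    have h2 : QuotientGroup.mk' (K.subgroupOf H) x = 1 :=
      (QuotientGroup.eq_one_iff _).2 (mem_subgroupOf.2 h1)
    rw [h2, orderOf_one] at hq
    exact hp.out.one_lt.ne hq
  · have h1 : zpowers (QuotientGroup.mk' (K.subgroupOf H) x) = ⊤ := by
      rw [eq_top_iff]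
      intro y _
      obtain ⟨y, rfl⟩ := QuotientGroup.mk'_surjective _ y
      have h2 : (y : X) ∈ L'.map H.subtype := by rw [h]; exact y.2
      obtain ⟨y', hy', hyy⟩ := h2
      have h3 : y' = y := Subtype.ext hyy
      rw [← h3]
      exact hy'
    have h2 : Nat.card (zpowers (QuotientGroup.mk' (K.subgroupOf H) x)) = p := by
      rw [Nat.card_zpowers, hq]
    rw [h1, card_top, hcard] at h2
    have h3 : p ^ n = p ^ 1 := by rw [h2, pow_one]
    have h4 := Nat.pow_right_injective hp.out.two_le h3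
    omega

end Cfsg.Agent.Lib.Helper32
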