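import Mathlib
import Cfsg.Agent.Lib.Helper32.ChiefBd
import Cfsg.Agent.Lib.Helper87.OmegaLemma

/-!
# `p`-central `p`-groups (`p` odd)

A finite `p`-group is `p`-central when its elements of order dividing `p` are central.
* `pcentral_comm_pow`: then `[x, t] ^ p = 1` whenever `x ^ p ^ 2 = 1`
  (the quotient by `Ω₁` is again `p`-central).
* `chiefBd_of_pcentral`: a normal `p`-central `p`-subgroup `T` of `X` with at most `p ^ 2`
  elements of order dividing `p` has all `X`-chief factors inside it of order at most `p ^ 2`.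
-/

set_option autoImplicit false

namespace Cfsg.Agent.Lib.Helper32

open Subgroup

universe u

theorem pcentral_comm_pow {p : ℕ} [hp : Fact p.Prime] (hp2 : p ≠ 2) :
    ∀ (N : ℕ) (T : Type u) [Group T] [Finite T], Nat.card T ≤ N → IsPGroup p T →
      (∀ z : T, z ^ p = 1 → ∀ t : T, Commute z t) →
      ∀ x t : T, (x ^ p) ^ p = 1 → (x⁻¹ * t⁻¹ * x * t) ^ p = 1 := by
  intro N
  induction N with
  | zero =>
    intro T _ _ hc
    have := Nat.card_pos (α := T)
    omega
  | succ N ih =>
    intro T _ _ hc hT hcen x t hx
    by_cases htop : zpowers x = ⊤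
    · have h1 : t ∈ zpowers x := by rw [htop]; exact mem_top t
      obtain ⟨k, rfl⟩ := mem_zpowers_iff.1 h1
      have h2 : x * x ^ k = x ^ k * x := ((Commute.refl x).zpow_right k).eq
      have h3 : x⁻¹ * (x ^ k)⁻¹ * x * x ^ k = 1 := by
        rw [mul_assoc, h2]; group
      rw [h3, one_pow]
    · obtain ⟨m, hm⟩ := IsPGroup.iff_card.1 hT
      obtain ⟨n, hn⟩ := IsPGroup.iff_card.1 (hT.to_subgroup (zpowers x))
      have hnm : n < m := by
        by_contra hcon
        push_neg at hcon
        apply htop
        apply eq_top_of_card_eq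
        have h1 : Nat.card (zpowers x) ∣ Nat.card T := card_subgroup_dvd_card _
        rw [hn, hm] at h1 ⊢
        have h2 := (Nat.pow_dvd_pow_iff_le_right hp.out.one_lt).1 h1
        have h3 : n = m := le_antisymm h2 hcon
        rw [h3]
      obtain ⟨M₀, hM₀card, hxM₀⟩ := Sylow.exists_subgroup_card_pow_prime_le p (m := m - 1)
        (by rw [hm]; exact pow_dvd_pow p (Nat.sub_le m 1)) (zpowers x) hn (by omega)
      have hidx : M₀.index = p := by
        have h1 := M₀.card_mul_index
        rw [hM₀card, hm] at h1
        have h2 : p ^ m = p ^ (m - 1) * p := by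
          rw [← pow_succ]
          congr 1
          omega
        rw [h2] at h1
        exact Nat.eq_of_mul_eq_mul_left (pow_pos hp.out.pos _) h1
      haveI hM₀n : M₀.Normal := by
        apply normal_of_index_eq_minFac_card
        rw [hidx, hm, Nat.Prime.pow_minFac hp.out (by omega)]
      have hxM : x ∈ M₀ := hxM₀ (mem_zpowers x)
      set y := t⁻¹ * x * t with hy
      have hyM : y ∈ M₀ := by
        have h1 := hM₀n.conj_mem x hxM t⁻¹
        rwa [inv_inv] at h1
      have hcardM : Nat.card M₀ ≤ N := by
        have h1 : p ^ (m - 1) < p ^ m := Nat.pow_lt_pow_right hp.out.one_lt (by omega)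
        rw [hM₀card]
        rw [hm] at hc
        omega
      have hcenM : ∀ z : M₀, z ^ p = 1 → ∀ s : M₀, Commute z s := by
        intro z hz s
        have h1 := hcen (z : T) (by have h2 := congrArg Subtype.val hz; simpa using h2) (s : T)
        exact Subtype.ext h1.eq
      have hxpc : ∀ s : T, Commute (x ^ p) s := hcen (x ^ p) hx
      have hyp : y ^ p = x ^ p := by
        rw [hy]
        have h1 : (t⁻¹ * x * t) ^ p = t⁻¹ * x ^ p * t := by
          have h2 := conj_pow (a := t⁻¹) (b := x) (i := p)
          simpa using h2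
        rw [h1, mul_assoc, (hxpc t).eq, ← mul_assoc, inv_mul_cancel, one_mul]
      have hc1 := ih M₀ hcardM (hT.to_subgroup M₀) hcenM ⟨y, hyM⟩ ⟨x⁻¹, M₀.inv_mem hxM⟩
        (by
          apply Subtype.ext
          show (y ^ p) ^ p = 1
          rw [hyp, hx])
      have hc2 : (y⁻¹ * x * y * x⁻¹) ^ p = 1 := by
        have h1 := congrArg Subtype.val hc1
        simpa using h1
      set c := y⁻¹ * x * y * x⁻¹ with hcdef
      have hccen : ∀ s : T, Commute c s := hcen c hc2
      have hcc : y * x⁻¹ = x⁻¹ * y * c := by rw [hcdef]; group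
      have h5 := Cfsg.Agent.Lib.Helper87.mul_pow_prime_class_two hp.out hp2 x⁻¹ y c hcc
        (hccen _) (hccen _) hc2
      have h6 : x⁻¹ * t⁻¹ * x * t = x⁻¹ * y := by rw [hy]; group
      rw [h6, h5, hyp, inv_pow, inv_mul_cancel]

/-- The elements of order dividing `p` of a `p`-central subgroup. -/
def omegaSub (p : ℕ) {X : Type*} [Group X] (T : Subgroup X)
    (hcen : ∀ z ∈ T, z ^ p = 1 → ∀ t ∈ T, Commute z t) : Subgroup X where
  carrier := {z | z ∈ T ∧ z ^ p = 1}
  one_mem' := ⟨T.one_mem, one_pow p⟩
  mul_mem' := by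
    rintro a b ⟨ha, hap⟩ ⟨hb, hbp⟩
    exact ⟨T.mul_mem ha hb, by rw [(hcen a ha hap b hb).mul_pow, hap, hbp, one_mul]⟩
  inv_mem' := by
    rintro a ⟨ha, hap⟩
    exact ⟨T.inv_mem ha, by rw [inv_pow, hap, inv_one]⟩

theorem mem_omegaSub {p : ℕ} {X : Type*} [Group X] (T : Subgroup X)
    (hcen : ∀ z ∈ T, z ^ p = 1 → ∀ t ∈ T, Commute z t) (z : X) :
    z ∈ omegaSub p T hcen ↔ z ∈ T ∧ z ^ p = 1 := Iff.rfl

theorem chiefBd_of_pcentral {p : ℕ} [hp : Fact p.Prime] (hp2 : p ≠ 2) :
    ∀ (N : ℕ) (X : Type u) [Group X] [Finite X] (T : Subgroup X), T.Normal → Nat.card T ≤ N →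
      IsPGroup p T → (∀ z ∈ T, z ^ p = 1 → ∀ t ∈ T, Commute z t) →
      Nat.card {z : X // z ∈ T ∧ z ^ p = 1} ≤ p ^ 2 → ChiefBd p ⊥ T := by
  intro N
  induction N with
  | zero =>
    intro X _ _ T _ hc
    have := Nat.card_pos (α := T)
    omega
  | succ N ih =>
    intro X _ _ T hTn hc hT hcen hcard
    by_cases hbot : T = ⊥
    · subst hbot
      intro H K _ _ _ hKH hH
      have h1 : H = ⊥ := le_bot_iff.1 hH
      rw [h1] at hKH
      exact absurd hKH not_lt_bot
    · set W := omegaSub p T hcen with hW
      have hWT : W ≤ T := fun z hz => hz.1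
      haveI hWn : W.Normal := by
        refine ⟨fun z hz g => ?_⟩
        rw [hW, mem_omegaSub] at hz ⊢
        refine ⟨hTn.conj_mem z hz.1 g, ?_⟩
        rw [conj_pow, hz.2, mul_one, mul_inv_cancel]
      have hWcard : Nat.card W ≤ p ^ 2 := hcard
      -- `W` is nontrivial
      have hTcard : p ∣ Nat.card T := by
        obtain ⟨m, hm⟩ := IsPGroup.iff_card.1 hT
        rw [hm]
        apply dvd_pow_self
        rintro rfl
        rw [pow_zero] at hm
        exact hbot ((card_eq_one).1 hm)
      obtain ⟨z₀, hz₀⟩ := exists_prime_orderOf_dvd_card' (G := T) p hTcard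
      have hz₀W : (z₀ : X) ∈ W := by
        rw [hW, mem_omegaSub]
        refine ⟨z₀.2, ?_⟩
        have h1 : z₀ ^ p = 1 := by rw [← hz₀]; exact pow_orderOf_eq_one z₀
        have h2 := congrArg Subtype.val h1
        simpa using h2
      have hz₀1 : (z₀ : X) ≠ 1 := by
        intro h1
        have h2 : z₀ = 1 := Subtype.ext h1
        rw [h2, orderOf_one] at hz₀
        exact hp.out.one_lt.ne hz₀
      have hWcard2 : 1 < Nat.card W := by
        rw [one_lt_card_iff_ne_bot]
        intro h1
        rw [h1, mem_bot] at hz₀W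
        exact hz₀1 hz₀W
      have h1 : ChiefBd p ⊥ W := by
        apply chiefBd_of_not_dvd
        rw [relIndex_bot_left]
        intro hdvd
        have h2 := Nat.le_of_dvd Nat.card_pos hdvd
        have h3 : p ^ 2 < p ^ 3 := Nat.pow_lt_pow_right hp.out.one_lt (by norm_num)
        omega
      have hker : (QuotientGroup.mk' W).ker = W := QuotientGroup.ker_mk' W
      have hmk1 : ∀ a : X, QuotientGroup.mk' W a = 1 ↔ a ∈ W := fun a =>
        QuotientGroup.eq_one_iff a
      have hcenT : ∀ z : T, z ^ p = 1 → ∀ t : T, Commute z t := by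
        intro z hz t
        have h3 := hcen (z : X) z.2 (by have h4 := congrArg Subtype.val hz; simpa using h4)
          (t : X) t.2
        exact Subtype.ext h3.eq
      -- the key commutator fact
      have hkey : ∀ z ∈ T, ∀ t ∈ T, (z ^ p) ^ p = 1 → z⁻¹ * t⁻¹ * z * t ∈ W := by
        intro z hz t ht hzp
        have h3 := pcentral_comm_pow hp2 (Nat.card T) T le_rfl hT hcenT ⟨z, hz⟩ ⟨t, ht⟩
          (Subtype.ext hzp)
        have h4 := congrArg Subtype.val h3
        rw [hW, mem_omegaSub]
        refine ⟨T.mul_mem (T.mul_mem (T.mul_mem (T.inv_mem hz) (T.inv_mem ht)) hz) ht, ?_⟩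
        simpa using h4
      have hmemT : ∀ a : X, QuotientGroup.mk' W a ∈ T.map (QuotientGroup.mk' W) → a ∈ T := by
        intro a ha
        obtain ⟨t, ht, hta⟩ := ha
        have h3 : t⁻¹ * a ∈ W := (QuotientGroup.eq).1 hta
        have h4 : a = t * (t⁻¹ * a) := by group
        rw [h4]
        exact T.mul_mem ht (hWT h3)
      have h2 : ChiefBd p W T := by
        apply chiefBd_of_quotient
        apply ih (X ⧸ W) (T.map (QuotientGroup.mk' W))
          (hTn.map _ (QuotientGroup.mk'_surjective W)) ?_ (hT.map _) ?_ ?_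
        · -- cardinality drops
          have h3 : Nat.card (T.map (QuotientGroup.mk' W)) = W.relIndex T := by
            rw [← relIndex_bot_left]
            have h4 : (⊥ : Subgroup (X ⧸ W)) = W.map (QuotientGroup.mk' W) := by
              symm
              rw [Subgroup.map_eq_bot_iff, hker]
            rw [h4, relIndex_map_map, hker, sup_idem, sup_eq_left.2 hWT]
          have h5 : Nat.card W * W.relIndex T = Nat.card T := by
            have h6 := relIndex_mul_relIndex ⊥ W T bot_le hWT
            rwa [relIndex_bot_left, relIndex_bot_left] at h6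
          rw [h3]
          have h7 : W.relIndex T < Nat.card T := by
            rw [← h5]
            have h8 : 0 < W.relIndex T := by
              rcases Nat.eq_zero_or_pos (W.relIndex T) with h9 | h9
              · rw [h9, mul_zero] at h5
                have := Nat.card_pos (α := T)
                omega
              · exact h9
            nlinarith
          omega
        · -- `p`-central
          intro z hz hzp t ht
          obtain ⟨z, hzT, rfl⟩ := hz
          obtain ⟨t, htT, rfl⟩ := ht
          have h3 : z ^ p ∈ W := by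
            rw [← hmk1, map_pow]
            exact hzp
          have h4 : (z ^ p) ^ p = 1 := h3.2
          have h5 := (hmk1 _).2 (hkey z hzT t htT h4)
          have h6 : QuotientGroup.mk' W z * QuotientGroup.mk' W t =
              QuotientGroup.mk' W t * QuotientGroup.mk' W z *
                QuotientGroup.mk' W (z⁻¹ * t⁻¹ * z * t) := by
            simp only [map_mul, map_inv]
            group
          rw [h5, mul_one] at h6
          exact h6
        · -- few elements of order `p`
          have hout : ∀ q : {q : X ⧸ W // q ∈ T.map (QuotientGroup.mk' W) ∧ q ^ p = 1},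
              (Quotient.out (q : X ⧸ W) : X) ∈ T ∧
                ((Quotient.out (q : X ⧸ W) : X) ^ p) ∈ W := by
            intro q
            have h3 : QuotientGroup.mk' W (Quotient.out (q : X ⧸ W)) = (q : X ⧸ W) :=
              QuotientGroup.out_eq' _
            refine ⟨hmemT _ (by rw [h3]; exact q.2.1), ?_⟩
            rw [← hmk1, map_pow, h3]
            exact q.2.2
          let f : {q : X ⧸ W // q ∈ T.map (QuotientGroup.mk' W) ∧ q ^ p = 1} →
              {z : X // z ∈ T ∧ z ^ p = 1} := fun q =>
            ⟨(Quotient.out (q : X ⧸ W) : X) ^ p, (hout q).2⟩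
          have hf : Function.Injective f := by
            intro q₁ q₂ h12
            have h3 : (Quotient.out (q₁ : X ⧸ W) : X) ^ p = (Quotient.out (q₂ : X ⧸ W) : X) ^ p :=
              congrArg Subtype.val h12
            set x := (Quotient.out (q₁ : X ⧸ W) : X) with hx
            set y := (Quotient.out (q₂ : X ⧸ W) : X) with hy
            have hxT : x ∈ T := (hout q₁).1
            have hyT : y ∈ T := (hout q₂).1
            have hypp : (y ^ p) ^ p = 1 := ((hout q₂).2).2
            have hcW : y⁻¹ * x * y * x⁻¹ ∈ W := by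
              have h4 := hkey y hyT x⁻¹ (T.inv_mem hxT) hypp
              rwa [inv_inv] at h4
            set c := y⁻¹ * x * y * x⁻¹ with hcdef
            have hcc : y * x⁻¹ = x⁻¹ * y * c := by rw [hcdef]; group
            have h5 := Cfsg.Agent.Lib.Helper87.mul_pow_prime_class_two hp.out hp2 x⁻¹ y c hcc
              (hcen c hcW.1 hcW.2 _ (T.inv_mem hxT)) (hcen c hcW.1 hcW.2 _ hyT) hcW.2
            have h6 : (x⁻¹ * y) ^ p = 1 := by
              rw [h5, ← h3, inv_pow, inv_mul_cancel]
            have h7 : x⁻¹ * y ∈ W := ⟨T.mul_mem (T.inv_mem hxT) hyT, h6⟩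
            have h8 : QuotientGroup.mk' W x = QuotientGroup.mk' W y := (QuotientGroup.eq).2 h7
            apply Subtype.ext
            have h9 : QuotientGroup.mk' W x = (q₁ : X ⧸ W) := QuotientGroup.out_eq' _
            have h10 : QuotientGroup.mk' W y = (q₂ : X ⧸ W) := QuotientGroup.out_eq' _
            rw [← h9, ← h10, h8]
          exact (Nat.card_le_card_of_injective f hf).trans hcard
      exact ChiefBd.trans bot_le hWT h1 h2

end Cfsg.Agent.Lib.Helper32
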