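import Mathlib
import Cfsg.Prelude
import Cfsg.Agent.S0093
import Cfsg.Agent.S0121
import Cfsg.Agent.Lib.Helper2.FrattiniP
import Cfsg.Agent.Lib.Helper54.OmegaAut
import Cfsg.Agent.Lib.Helper63.HallHigman

/-!
# A critical subgroup of `O_p(X)` inside a `p`-soluble group with `O_{p'}(X) = 1`

`exists_critical`: a normal subgroup `C ≤ O_p(X)` of class at most two with `p`-th powers central,
self-centralizing in `O_p(X)`, such that every element of `X` centralizing the elements of order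
dividing `p` of `C` is a `p`-element (`p` odd).
Also some generic lemmas (commuting closures, orbit counting).
-/

set_option autoImplicit false

namespace Cfsg.Agent.Lib.Helper32

open Subgroup Cfsg
open scoped commutatorElement

universe u

theorem exists_critical {X : Type u} [Group X] [Finite X] {p : ℕ} [hp : Fact p.Prime]
    (hp2 : p ≠ 2) (hS : IsPSolvable p X) (h0 : pPrimeCore p X = ⊥) :
    ∃ C : Subgroup X, C.Normal ∧ C ≤ pCore p X ∧
      (∀ a ∈ C, ∀ x ∈ pCore p X, a⁻¹ * x⁻¹ * a * x ∈ C ∧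
        ∀ w ∈ C, Commute (a⁻¹ * x⁻¹ * a * x) w) ∧
      (∀ x ∈ pCore p X, (∀ c ∈ C, Commute x c) → x ∈ C) ∧
      (∀ a ∈ C, ∀ w ∈ C, Commute (a ^ p) w) ∧
      (∀ g : X, (∀ c ∈ C, c ^ p = 1 → Commute g c) → ∃ k : ℕ, g ^ p ^ k = 1) := by
  set P₀ := pCore p X with hP₀def
  have hP₀ : IsPGroup p P₀ := Cfsg.Agent.Lib.Helper63.pCore_isPGroup' p X
  haveI hP₀n : P₀.Normal := Cfsg.pCore_normal p X
  have hcent : centralizer (P₀ : Set X) ≤ P₀ :=
    Cfsg.Agent.Lib.Helper63.centralizer_pCore_le h0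
      (Cfsg.Agent.Lib.Helper63.exists_plengthLE_of_isPSolvable hS)
  obtain ⟨Hc, hchar, hfrat, hcomm, hcen⟩ := Cfsg.Agent.S0093.result (P := ↥P₀) hP₀
  haveI := hchar
  -- facts inside `P₀`
  have P3 : ∀ a ∈ Hc, ∀ x : P₀, a⁻¹ * x⁻¹ * a * x ∈ Hc ∧
      ∀ w ∈ Hc, Commute (a⁻¹ * x⁻¹ * a * x) w := by
    intro a ha x
    have hm : ⁅a⁻¹, x⁻¹⁆ ∈ ⁅Hc, (⊤ : Subgroup P₀)⁆ :=
      Subgroup.commutator_mem_commutator (Hc.inv_mem ha) (Subgroup.mem_top _)
    have hm2 := hcomm hm
    rw [commutatorElement_def, inv_inv, inv_inv] at hm2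
    exact ⟨hm2.1, fun w hw => (Subgroup.mem_centralizer_iff.mp hm2.2 w hw).symm⟩
  have P4 : ∀ x : P₀, (∀ c ∈ Hc, Commute x c) → x ∈ Hc := by
    intro x hx
    apply hcen
    rw [Subgroup.mem_centralizer_iff]
    intro c hc
    exact (hx c hc).symm.eq
  have P5 : ∀ a ∈ Hc, ∀ w ∈ Hc, Commute (a ^ p) w := by
    intro a ha w hw
    have hm : ((⟨a, ha⟩ : Hc) ^ p : Hc) ∈ frattini Hc :=
      Cfsg.Agent.Lib.Helper2.pow_mem_frattini (hP₀.to_subgroup Hc) ⟨a, ha⟩
    have hm2 : a ^ p ∈ (frattini Hc).map Hc.subtype := ⟨_, hm, by simp⟩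
    exact (Subgroup.mem_centralizer_iff.mp (hfrat hm2) w hw).symm
  set C : Subgroup X := Hc.map P₀.subtype with hCdef
  have hCmem : ∀ x : X, x ∈ C ↔ ∃ hx : x ∈ P₀, (⟨x, hx⟩ : P₀) ∈ Hc := by
    intro x
    constructor
    · rintro ⟨y, hy, rfl⟩
      exact ⟨y.2, hy⟩
    · rintro ⟨hx, hy⟩
      exact ⟨⟨x, hx⟩, hy, rfl⟩
  have hCn : C.Normal := ConjAct.normal_of_characteristic_of_normal
  have hCP : C ≤ P₀ := map_subtype_le Hc
  refine ⟨C, hCn, hCP, ?_, ?_, ?_, ?_⟩
  · intro a ha x hx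
    obtain ⟨haP, haH⟩ := (hCmem a).1 ha
    have h1 := P3 ⟨a, haP⟩ haH ⟨x, hx⟩
    refine ⟨(hCmem _).2 ⟨_, h1.1⟩, ?_⟩
    intro w hw
    obtain ⟨hwP, hwH⟩ := (hCmem w).1 hw
    have h2 := congrArg Subtype.val (h1.2 ⟨w, hwP⟩ hwH).eq
    exact h2
  · intro x hx hxc
    refine (hCmem x).2 ⟨hx, P4 ⟨x, hx⟩ ?_⟩
    intro c hc
    have h1 := hxc (c : X) ((hCmem _).2 ⟨c.2, hc⟩)
    exact Subtype.ext h1.eq
  · intro a ha w hw
    obtain ⟨haP, haH⟩ := (hCmem a).1 ha
    obtain ⟨hwP, hwH⟩ := (hCmem w).1 hw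
    have h2 := congrArg Subtype.val (P5 ⟨a, haP⟩ haH ⟨w, hwP⟩ hwH).eq
    exact h2
  · intro g hg
    have hord : orderOf g ≠ 0 := (orderOf_pos g).ne'
    obtain ⟨k, m, hm, hkm⟩ := Nat.exists_eq_pow_mul_and_not_dvd hord p hp.out.ne_one
    refine ⟨k, ?_⟩
    set g' := g ^ p ^ k with hg'
    have hordg' : orderOf g' = m := by
      rw [hg', orderOf_pow_of_dvd (pow_pos hp.out.pos k).ne' (hkm ▸ dvd_mul_right _ _), hkm,
        Nat.mul_div_cancel_left _ (pow_pos hp.out.pos k)]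
    have hmcop : m.Coprime p := ((Nat.Prime.coprime_iff_not_dvd hp.out).2 hm).symm
    have hg'c : ∀ c ∈ C, c ^ p = 1 → Commute g' c := fun c hc hcp => (hg c hc hcp).pow_left _
    set a : MulAut P₀ := MulAut.conjNormal g' with ha
    have haord : (orderOf a).Coprime p :=
      Nat.Coprime.coprime_dvd_left (hordg' ▸ orderOf_map_dvd (MulAut.conjNormal (H := P₀)) g')
        hmcop
    have happly : ∀ x : P₀, ((a x : P₀) : X) = g' * x * g'⁻¹ := fun x =>
      MulAut.conjNormal_apply g' x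
    have hHa : ∀ x, a x ∈ Hc ↔ x ∈ Hc := by
      intro x
      have hfix' := hchar.fixed a
      constructor
      · intro h; rw [← hfix']; exact h
      · intro h; rw [← hfix'] at h; exact h
    have hfixH : ∀ x ∈ Hc, a x = x := by
      apply Cfsg.Agent.Lib.Helper54.aut_fix_of_class_two hP₀ a haord Hc hHa
        (fun x hx y hy w hw => (P3 x hx y).2 w hw) P5 1 le_rfl
        (Cfsg.Agent.Lib.Helper54.omega_exponent_odd hp.out hp2)
      intro x hx hxp
      apply Subtype.ext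
      rw [happly]
      have h1 : (x : X) ^ p = 1 := by
        have h2 := congrArg Subtype.val hxp
        simpa using h2
      have h3 := hg'c (x : X) ((hCmem _).2 ⟨x.2, hx⟩) h1
      rw [h3.eq, mul_inv_cancel_right]
    have ha1 : a = 1 := Cfsg.Agent.S0121.result hP₀ Hc hchar hfrat hcomm hcen a haord hfixH
    have hg'P : g' ∈ P₀ := by
      apply hcent
      rw [Subgroup.mem_centralizer_iff]
      intro x hx
      have h1 := happly ⟨x, hx⟩
      rw [ha1, MulAut.one_apply] at h1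
      have h2 : x = g' * x * g'⁻¹ := h1
      calc x * g' = (g' * x * g'⁻¹) * g' := by rw [← h2]
        _ = g' * x := by group
    obtain ⟨j, hj⟩ := hP₀ ⟨g', hg'P⟩
    have hj' : g' ^ p ^ j = 1 := by
      have h2 := congrArg Subtype.val hj
      simpa using h2
    have h3 : orderOf g' ∣ p ^ j := orderOf_dvd_of_pow_eq_one hj'
    rw [hordg'] at h3
    have h4 : m = 1 := Nat.Coprime.eq_one_of_dvd (Nat.Coprime.pow_right j hmcop) h3
    rw [h4] at hordg'
    exact orderOf_eq_one_iff.1 hordg'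

theorem commute_closure {X : Type*} [Group X] (S : Set X)
    (h : ∀ a ∈ S, ∀ b ∈ S, Commute a b) : ∀ a ∈ closure S, ∀ b ∈ closure S, Commute a b := by
  have h1 : closure S ≤ centralizer S := by
    rw [closure_le]
    intro a ha
    rw [SetLike.mem_coe, mem_centralizer_iff]
    intro b hb
    exact (h b hb a ha).eq
  have h2 : closure S ≤ centralizer (closure S : Set X) := by
    rw [closure_le]
    intro a ha
    rw [SetLike.mem_coe, mem_centralizer_iff]
    intro b hb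
    have h3 := mem_centralizer_iff.1 (h1 hb) a ha
    exact h3.symm
  intro a ha b hb
  exact (mem_centralizer_iff.1 (h2 hb) a ha)

theorem pow_closure {X : Type*} [Group X] (S : Set X) (p : ℕ)
    (h : ∀ a ∈ S, ∀ b ∈ S, Commute a b) (hpow : ∀ a ∈ S, a ^ p = 1) :
    ∀ a ∈ closure S, a ^ p = 1 := by
  intro a ha
  induction ha using closure_induction with
  | mem x hx => exact hpow x hx
  | one => exact one_pow p
  | mul x y hx hy ihx ihy =>
    rw [(commute_closure S h x hx y hy).mul_pow, ihx, ihy, one_mul]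
  | inv x hx ihx => rw [inv_pow, ihx, inv_one]

/-- Orbit counting: the index of the centralizer of `x` in `S` is at most the size of any set
containing the `S`-conjugates of `x`. -/
theorem relIndex_centralizer_le_ncard {X : Type*} [Group X] [Finite X] (S : Subgroup X) (x : X)
    (Y : Set X) (hY : ∀ s ∈ S, s * x * s⁻¹ ∈ Y) : (centralizer {x}).relIndex S ≤ Y.ncard := by
  rw [← Nat.card_coe_set_eq]
  show Nat.card (↥S ⧸ (centralizer {x}).subgroupOf S) ≤ Nat.card ↥Y
  let f : ↥S ⧸ (centralizer {x}).subgroupOf S → ↥Y := fun q =>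
    ⟨((Quotient.out q : S) : X) * x * ((Quotient.out q : S) : X)⁻¹, hY _ (Quotient.out q).2⟩
  apply Nat.card_le_card_of_injective f
  intro q₁ q₂ h12
  have h1 : ((Quotient.out q₁ : S) : X) * x * ((Quotient.out q₁ : S) : X)⁻¹ =
      ((Quotient.out q₂ : S) : X) * x * ((Quotient.out q₂ : S) : X)⁻¹ := congrArg Subtype.val h12
  set s₁ := (Quotient.out q₁ : S) with hs₁
  set s₂ := (Quotient.out q₂ : S) with hs₂
  have h2 : (s₁⁻¹ * s₂ : S) ∈ (centralizer {x}).subgroupOf S := by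
    rw [mem_subgroupOf, mem_centralizer_iff]
    intro y hy
    rw [Set.mem_singleton_iff.1 hy]
    push_cast
    have h3 : x * ((s₁ : X)⁻¹ * s₂) = (s₁ : X)⁻¹ * ((s₁ : X) * x * (s₁ : X)⁻¹) * s₂ := by group
    rw [h3, h1]
    group
  have h4 : (QuotientGroup.mk s₁ : ↥S ⧸ (centralizer {x}).subgroupOf S) = QuotientGroup.mk s₂ :=
    (QuotientGroup.eq).2 h2
  have h5 : (QuotientGroup.mk s₁ : ↥S ⧸ (centralizer {x}).subgroupOf S) = q₁ :=
    QuotientGroup.out_eq' _
  have h6 : (QuotientGroup.mk s₂ : ↥S ⧸ (centralizer {x}).subgroupOf S) = q₂ :=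
    QuotientGroup.out_eq' _
  rw [← h5, ← h6, h4]

end Cfsg.Agent.Lib.Helper32
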