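import Mathlib
import Cfsg.Agent.Lib.Helper32.Rank2a

/-!
# The rank-two case: a normal subgroup `D` of exponent `p` and class two containing `C_p × C_p`

`caseA_bounds`: for a `p`-group `S` containing `D` and `T = C_X(D)`, the index `[TD : T]` is not
divisible by `p ^ 3` and `[S : TD] ≤ p ^ 2`, when abelian subgroups of exponent `p` have order at
most `p ^ 2`.
-/

set_option autoImplicit false

namespace Cfsg.Agent.Lib.Helper32

open Subgroup

theorem caseA_bounds {X : Type*} [Group X] [Finite X] {p : ℕ} [hp : Fact p.Prime]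
    (hab : ∀ A : Subgroup X, (∀ a ∈ A, ∀ b ∈ A, Commute a b) → (∀ a ∈ A, a ^ p = 1) →
      Nat.card A ≤ p ^ 2)
    (D : Subgroup X) [hDn : D.Normal] (hDp : ∀ d ∈ D, d ^ p = 1)
    (hDcl : ∀ a ∈ D, ∀ b ∈ D, a * b * a⁻¹ * b⁻¹ ∈ centralizer (D : Set X))
    (S : Subgroup X) (hSp : IsPGroup p S) (hDS : D ≤ S) (hTS : centralizer (D : Set X) ≤ S)
    (A : Subgroup X) (hAD : A ≤ D) (hAab : ∀ a ∈ A, ∀ b ∈ A, Commute a b)
    (hAcard : Nat.card A = p ^ 2) :
    ¬ p ^ 3 ∣ (centralizer (D : Set X)).relIndex (centralizer (D : Set X) ⊔ D) ∧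
      (centralizer (D : Set X) ⊔ D).relIndex S ≤ p ^ 2 := by
  have hpp : p.Prime := hp.out
  have hp_lt : p < p ^ 2 := by nlinarith [hpp.two_le]
  set T := centralizer (D : Set X) with hT
  haveI hTn : T.Normal := normal_centralizer
  have hAp : ∀ a ∈ A, a ^ p = 1 := fun a ha => hDp a (hAD ha)
  have hTmem : ∀ g : X, g ∈ T ↔ ∀ d ∈ D, Commute d g := fun g => mem_centralizer_iff
  -- adjoining a commuting element of order `p` to `A`
  have hadj : ∀ z : X, (∀ a ∈ A, Commute z a) → z ^ p = 1 → z ∈ A := by
    intro z hz hzp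
    set S₀ : Set X := (A : Set X) ∪ {z} with hS₀def
    have hS₀ : ∀ a ∈ S₀, ∀ b ∈ S₀, Commute a b := by
      rintro a (ha | ha) b (hb | hb)
      · exact hAab a ha b hb
      · rw [Set.mem_singleton_iff.1 hb]; exact (hz a ha).symm
      · rw [Set.mem_singleton_iff.1 ha]; exact hz b hb
      · rw [Set.mem_singleton_iff.1 ha, Set.mem_singleton_iff.1 hb]
    have h1 := hab (closure S₀) (commute_closure S₀ hS₀) (pow_closure S₀ p hS₀ (by
      rintro a (ha | ha)
      · exact hAp a ha
      · rw [Set.mem_singleton_iff.1 ha]; exact hzp))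
    have h2 : A ≤ closure S₀ := fun a ha => subset_closure (Or.inl ha)
    have h3 : A = closure S₀ := eq_of_le_of_card_ge h2 (by rw [hAcard]; exact h1)
    rw [h3]
    exact subset_closure (Or.inr rfl)
  set Z₁ := D ⊓ T with hZ₁
  have hZA : Z₁ ≤ A := fun z hz =>
    hadj z (fun a ha => ((hTmem z).1 hz.2 a (hAD ha)).symm) (hDp z hz.1)
  have hDpg : IsPGroup p D := hSp.to_le hDS
  obtain ⟨j, hj⟩ := IsPGroup.iff_card.1 hDpg
  -- generation by two elements and the dichotomy
  have hgen : ∃ x ∈ D, ∃ y ∈ D, D = closure {x, y} ∧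
      ((Nat.card D = p ^ 2 ∧ Z₁ = D) ∨ (Nat.card D = p ^ 3 ∧ Nat.card Z₁ = p)) := by
    by_cases hAZ : A ≤ Z₁
    · have hDA : D = A := by
        apply le_antisymm _ hAD
        intro d hd
        exact hadj d (fun a ha => ((hTmem a).1 (hAZ ha).2 d hd)) (hDp d hd)
      have hZD : Z₁ = D := le_antisymm inf_le_left (by rw [hDA]; exact hAZ)
      have hAne : A ≠ ⊥ := by
        rw [← one_lt_card_iff_ne_bot, hAcard]
        exact Nat.one_lt_pow (by norm_num) hpp.one_lt
      obtain ⟨⟨x, hxA⟩, hx1⟩ := (A.ne_bot_iff_exists_ne_one).1 hAne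
      have hx1' : x ≠ 1 := fun h => hx1 (Subtype.ext h)
      have hxord : orderOf x = p := orderOf_eq_prime (hAp x hxA) hx1'
      have hzx : Nat.card (zpowers x) = p := by rw [Nat.card_zpowers, hxord]
      obtain ⟨y, hyA, hyx⟩ : ∃ y ∈ A, y ∉ zpowers x := by
        by_contra hcon
        push_neg at hcon
        have h1 : A ≤ zpowers x := hcon
        have h2 := Nat.le_of_dvd (by rw [hzx]; exact hpp.pos) (card_dvd_of_le h1)
        rw [hAcard, hzx] at h2
        omega
      refine ⟨x, hAD hxA, y, hAD hyA, ?_, Or.inl ⟨by rw [hDA]; exact hAcard, hZD⟩⟩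
      have hE : closure {x, y} ≤ A := (closure_le A).2 (by
        intro w hw
        rcases hw with rfl | rfl
        · exact hxA
        · exact hyA)
      have hxE : zpowers x ≤ closure {x, y} := (zpowers_le).2 (subset_closure (by simp))
      have hyE : y ∈ closure ({x, y} : Set X) := subset_closure (by simp)
      have hcE := card_dvd_of_le hE
      rw [hAcard] at hcE
      obtain ⟨i, hi2, hi⟩ := (Nat.dvd_prime_pow hpp).1 hcE
      have hi0 : i ≠ 0 := by
        rintro rfl
        rw [pow_zero] at hi
        have h1 := card_dvd_of_le hxE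
        rw [hi, hzx] at h1
        exact hpp.one_lt.ne' (Nat.dvd_one.1 h1)
      have hi1 : i ≠ 1 := by
        rintro rfl
        have h1 := eq_of_le_of_card_ge hxE (by rw [hi, hzx, pow_one])
        exact hyx (h1 ▸ hyE)
      have hi2' : i = 2 := by omega
      rw [hDA]
      exact (eq_of_le_of_card_ge hE (by rw [hAcard, hi, hi2'])).symm
    · obtain ⟨a, haA, haZ⟩ := SetLike.not_le_iff_exists.1 hAZ
      have haD := hAD haA
      have haT : a ∉ T := fun h => haZ ⟨haD, h⟩
      obtain ⟨b, hbD, hab'⟩ : ∃ b ∈ D, ¬ Commute b a := by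
        by_contra hcon
        push_neg at hcon
        exact haT ((hTmem a).2 hcon)
      have ha1 : a ≠ 1 := by
        rintro rfl
        exact haT T.one_mem
      have hZne : Z₁ ≠ ⊥ := by
        haveI : Nontrivial D := ⟨⟨⟨a, haD⟩, 1, fun h => ha1 (congrArg Subtype.val h)⟩⟩
        haveI := IsPGroup.center_nontrivial hDpg
        obtain ⟨z, hz⟩ := exists_ne (1 : center D)
        intro hbot
        have hzZ : ((z : D) : X) ∈ Z₁ := by
          refine ⟨(z : D).2, (hTmem _).2 ?_⟩
          intro d hd
          have h1 := mem_center_iff.1 z.2 ⟨d, hd⟩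
          exact congrArg Subtype.val h1
        rw [hbot, mem_bot] at hzZ
        apply hz
        apply Subtype.ext
        apply Subtype.ext
        exact hzZ
      have hZcard : Nat.card Z₁ = p := by
        have h1 := card_dvd_of_le hZA
        rw [hAcard] at h1
        obtain ⟨i, hi2, hi⟩ := (Nat.dvd_prime_pow hpp).1 h1
        have hi0 : i ≠ 0 := by
          rintro rfl
          rw [pow_zero] at hi
          exact hZne (card_eq_one.1 hi)
        have hi2' : i ≠ 2 := by
          rintro rfl
          have h2 := eq_of_le_of_card_ge hZA (by rw [hAcard, hi])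
          exact haZ (h2 ▸ haA)
        have hi1 : i = 1 := by omega
        rw [hi, hi1, pow_one]
      have hCa : ∀ y ∈ D, Commute y a → y ∈ A := by
        intro y hy hya
        apply hadj y _ (hDp y hy)
        set E₂ := closure ((Z₁ : Set X) ∪ {a}) with hE₂
        have hE₂A : E₂ ≤ A := (closure_le A).2 (by
          rintro w (hw | hw)
          · exact hZA hw
          · rw [Set.mem_singleton_iff.1 hw]; exact haA)
        have hZE : Z₁ ≤ E₂ := fun z hz => subset_closure (Or.inl hz)
        have haE : a ∈ E₂ := subset_closure (Or.inr rfl)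
        have hE₂eq : E₂ = A := by
          apply eq_of_le_of_card_ge hE₂A
          have h1 := card_dvd_of_le hE₂A
          rw [hAcard] at h1
          obtain ⟨i, hi2, hi⟩ := (Nat.dvd_prime_pow hpp).1 h1
          have h2 := card_dvd_of_le hZE
          rw [hZcard, hi] at h2
          have hi0 : i ≠ 0 := by
            rintro rfl
            rw [pow_zero] at h2
            exact hpp.one_lt.ne' (Nat.dvd_one.1 h2)
          have hi1 : i ≠ 1 := by
            rintro rfl
            have h3 := eq_of_le_of_card_ge hZE (by rw [hZcard, hi, pow_one])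
            exact haZ (h3 ▸ haE)
          have hi2' : i = 2 := by omega
          rw [hAcard, hi, hi2']
        intro a' ha'
        rw [← hE₂eq] at ha'
        have h3 : E₂ ≤ centralizer {y} := (closure_le _).2 (by
          rintro w (hw | hw)
          · rw [SetLike.mem_coe, mem_centralizer_iff]
            intro y' hy'
            rw [Set.mem_singleton_iff.1 hy']
            exact ((hTmem w).1 hw.2 y hy).eq
          · rw [SetLike.mem_coe, mem_centralizer_iff]
            intro y' hy'
            rw [Set.mem_singleton_iff.1 hy', Set.mem_singleton_iff.1 hw]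
            exact hya.eq)
        exact mem_centralizer_iff.1 (h3 ha') y rfl
      have horb : (centralizer {a}).relIndex D ≤ p := by
        have h1 := relIndex_centralizer_le_ncard D a ((fun z => z * a) '' (Z₁ : Set X)) (by
          intro d hd
          refine ⟨d * a * d⁻¹ * a⁻¹, ⟨?_, hDcl d hd a haD⟩, by group⟩
          exact D.mul_mem (hDn.conj_mem a haD d) (D.inv_mem haD))
        have h2 : ((fun z => z * a) '' (Z₁ : Set X)).ncard ≤ (Z₁ : Set X).ncard :=
          Set.ncard_image_le (Set.toFinite _)
        have h3 : (Z₁ : Set X).ncard = Nat.card Z₁ := (Nat.card_coe_set_eq _).symm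
        omega
      have hinfA : D ⊓ centralizer {a} = A := by
        apply le_antisymm
        · rintro y ⟨hy, hya⟩
          have h1 : Commute a y := mem_centralizer_iff.1 hya a rfl
          exact hCa y hy h1.symm
        · intro y hy
          refine ⟨hAD hy, mem_centralizer_iff.2 (fun h hh => ?_)⟩
          rw [Set.mem_singleton_iff.1 hh]
          exact (hAab a haA y hy).eq
      have hrel : (centralizer {a}).relIndex D = A.relIndex D := by
        rw [← inf_relIndex_left, hinfA]
      have hcardD : Nat.card A * A.relIndex D = Nat.card D := by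
        have h6 := relIndex_mul_relIndex ⊥ A D bot_le hAD
        rwa [relIndex_bot_left, relIndex_bot_left] at h6
      have hjne : A.relIndex D ≠ 1 := by
        intro h1
        have h2 : D ≤ A := relIndex_eq_one.1 h1
        exact hab' (hAab b (h2 hbD) a haA)
      have hjp : A.relIndex D = p := by
        have h1 : A.relIndex D ∣ Nat.card D := relIndex_dvd_card A D
        rw [hj] at h1
        obtain ⟨i, -, hi⟩ := (Nat.dvd_prime_pow hpp).1 h1
        have h2 : A.relIndex D ≤ p := hrel ▸ horb
        rcases i with _ | _ | i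
        · exact absurd (by rw [hi, pow_zero]) hjne
        · rw [hi, pow_one]
        · exfalso
          have h3 : p ^ 2 ≤ p ^ (i + 1 + 1) := Nat.pow_le_pow_right hpp.pos (by omega)
          rw [hi] at h2
          omega
      have hD3 : Nat.card D = p ^ 3 := by
        rw [← hcardD, hAcard, hjp]
        ring
      refine ⟨a, haD, b, hbD, ?_, Or.inr ⟨hD3, hZcard⟩⟩
      set E := closure ({a, b} : Set X) with hE
      have hED : E ≤ D := (closure_le D).2 (by
        intro w hw
        rcases hw with rfl | rfl
        · exact haD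
        · exact hbD)
      have haE : a ∈ E := subset_closure (by simp)
      have hbE : b ∈ E := subset_closure (by simp)
      symm
      apply eq_of_le_of_card_ge hED
      have h1 := card_dvd_of_le hED
      rw [hD3] at h1
      obtain ⟨i, hi3, hi⟩ := (Nat.dvd_prime_pow hpp).1 h1
      have hcomm : i ≤ 2 → False := by
        intro hi2
        have hEc : ∀ u v : E, u * v = v * u := by
          interval_cases i
          · rw [pow_zero] at hi
            intro u v
            haveI : Subsingleton E := (Nat.card_eq_one_iff_unique.1 hi).1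
            exact Subsingleton.elim _ _
          · rw [pow_one] at hi
            haveI := isCyclic_of_prime_card hi
            intro u v
            exact (IsCyclic.isMulCommutative (α := E)).is_comm.comm u v
          · exact IsPGroup.commutative_of_card_eq_prime_sq hi
        have h2 := hEc ⟨b, hbE⟩ ⟨a, haE⟩
        exact hab' (congrArg Subtype.val h2)
      have hi3' : i = 3 := by
        by_contra h
        exact hcomm (by omega)
      rw [hD3, hi, hi3']
  obtain ⟨x, hxD, y, hyD, hxy, hdich⟩ := hgen
  have hTxy : T = centralizer {x} ⊓ centralizer {y} := by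
    apply le_antisymm
    · intro g hg
      refine ⟨mem_centralizer_iff.2 (fun h hh => ?_), mem_centralizer_iff.2 (fun h hh => ?_)⟩
      · rw [Set.mem_singleton_iff.1 hh]
        exact ((hTmem g).1 hg x hxD).eq
      · rw [Set.mem_singleton_iff.1 hh]
        exact ((hTmem g).1 hg y hyD).eq
    · rintro g ⟨hgx, hgy⟩
      rw [hTmem]
      intro d hd
      rw [hxy] at hd
      have h3 : closure ({x, y} : Set X) ≤ centralizer {g} := (closure_le _).2 (by
        intro w hw
        rw [SetLike.mem_coe, mem_centralizer_iff]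
        intro g' hg'
        rw [Set.mem_singleton_iff.1 hg']
        rcases hw with rfl | rfl
        · exact (mem_centralizer_iff.1 hgx w rfl).symm
        · exact (mem_centralizer_iff.1 hgy w rfl).symm)
      exact (mem_centralizer_iff.1 (h3 hd) g rfl).symm
  obtain ⟨e, he⟩ := IsPGroup.iff_card.1 hSp
  have hDcard_gt : 1 < Nat.card D := by
    have h1 := Nat.le_of_dvd Nat.card_pos (card_dvd_of_le hAD)
    rw [hAcard] at h1
    have h2 := hpp.two_le
    omega
  have horbS : ∀ w ∈ D, ∃ i, (centralizer {w}).relIndex S = p ^ i ∧ p ^ (i + 1) ≤ Nat.card D := by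
    intro w hw
    have h1 : (centralizer {w}).relIndex S ∣ Nat.card S := relIndex_dvd_card _ _
    rw [he] at h1
    obtain ⟨i, -, hi⟩ := (Nat.dvd_prime_pow hpp).1 h1
    refine ⟨i, hi, ?_⟩
    have hlt : (centralizer {w}).relIndex S < Nat.card D := by
      by_cases hw1 : w = 1
      · subst hw1
        have h2 : centralizer ({1} : Set X) = ⊤ := by
          ext g
          simp [mem_centralizer_iff]
        rw [h2, relIndex_top_left]
        exact hDcard_gt
      · have h2 := relIndex_centralizer_le_ncard S w ((D : Set X) \ {1}) (by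
          intro s hs
          refine ⟨hDn.conj_mem w hw s, ?_⟩
          rw [Set.mem_singleton_iff]
          intro h3
          apply hw1
          have h4 : w = s⁻¹ * (s * w * s⁻¹) * s := by group
          rw [h4, h3]
          group)
        have h4 : ((D : Set X) \ {1}).ncard = (D : Set X).ncard - 1 :=
          Set.ncard_sdiff_singleton_of_mem D.one_mem
        have h5 : (D : Set X).ncard = Nat.card D := (Nat.card_coe_set_eq _).symm
        omega
    rw [hi, hj] at hlt
    rw [hj]
    have h7 : i < j := (Nat.pow_lt_pow_iff_right hpp.one_lt).1 hlt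
    exact Nat.pow_le_pow_right hpp.pos h7
  obtain ⟨i₁, hi₁, hi₁'⟩ := horbS x hxD
  obtain ⟨i₂, hi₂, hi₂'⟩ := horbS y hyD
  have hTS_le : T.relIndex S ≤ p ^ i₁ * p ^ i₂ := by
    rw [hTxy, ← hi₁, ← hi₂]
    exact relIndex_inf_le
  have hrel1 : T.relIndex (T ⊔ D) = Z₁.relIndex D := by
    rw [relIndex_sup_left, ← inf_relIndex_left (H := D) (K := T)]
  have hZD : Nat.card Z₁ * Z₁.relIndex D = Nat.card D := by
    have h6 := relIndex_mul_relIndex ⊥ Z₁ D bot_le inf_le_left
    rwa [relIndex_bot_left, relIndex_bot_left] at h6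
  have hmul : T.relIndex (T ⊔ D) * (T ⊔ D).relIndex S = T.relIndex S :=
    relIndex_mul_relIndex T (T ⊔ D) S le_sup_left (sup_le hTS hDS)
  rcases hdich with ⟨hD2, hZD'⟩ | ⟨hD3, hZp⟩
  · have h1 : Z₁.relIndex D = 1 := by rw [hZD']; exact relIndex_self D
    rw [hrel1, h1] at hmul
    rw [hrel1, h1]
    refine ⟨?_, ?_⟩
    · intro h
      have h2 := Nat.le_of_dvd one_pos h
      have h3 : 1 < p ^ 3 := Nat.one_lt_pow (by norm_num) hpp.one_lt
      omega
    · rw [one_mul] at hmul
      rw [hmul]
      rw [hD2] at hi₁' hi₂'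
      have h2 : i₁ ≤ 1 := by
        have := (Nat.pow_le_pow_iff_right hpp.one_lt).1 hi₁'
        omega
      have h3 : i₂ ≤ 1 := by
        have := (Nat.pow_le_pow_iff_right hpp.one_lt).1 hi₂'
        omega
      calc T.relIndex S ≤ p ^ i₁ * p ^ i₂ := hTS_le
        _ ≤ p ^ 1 * p ^ 1 :=
          Nat.mul_le_mul (Nat.pow_le_pow_right hpp.pos h2) (Nat.pow_le_pow_right hpp.pos h3)
        _ = p ^ 2 := by ring
  · have h1 : Z₁.relIndex D = p ^ 2 := by
      rw [hZp, hD3] at hZD
      have h2 : p * Z₁.relIndex D = p * p ^ 2 := by rw [hZD]; ring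
      exact Nat.eq_of_mul_eq_mul_left hpp.pos h2
    rw [hrel1, h1] at hmul
    rw [hrel1, h1]
    refine ⟨?_, ?_⟩
    · intro h
      have h2 := (Nat.pow_dvd_pow_iff_le_right hpp.one_lt).1 h
      omega
    · rw [hD3] at hi₁' hi₂'
      have h2 : i₁ ≤ 2 := by
        have := (Nat.pow_le_pow_iff_right hpp.one_lt).1 hi₁'
        omega
      have h3 : i₂ ≤ 2 := by
        have := (Nat.pow_le_pow_iff_right hpp.one_lt).1 hi₂'
        omega
      have h4 : p ^ 2 * (T ⊔ D).relIndex S ≤ p ^ 2 * p ^ 2 := by
        rw [hmul]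
        calc T.relIndex S ≤ p ^ i₁ * p ^ i₂ := hTS_le
          _ ≤ p ^ 2 * p ^ 2 :=
            Nat.mul_le_mul (Nat.pow_le_pow_right hpp.pos h2) (Nat.pow_le_pow_right hpp.pos h3)
      exact Nat.le_of_mul_le_mul_left h4 (pow_pos hpp.pos 2)

end Cfsg.Agent.Lib.Helper32
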