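import Mathlib
import Cfsg.Agent.Lib.Helper32.ChiefBd
import Cfsg.Agent.Lib.Helper32.PCentral
import Cfsg.Agent.Lib.Helper32.Rank2a
import Cfsg.Agent.Lib.Helper32.Rank2b
import Cfsg.Agent.Lib.Helper69.PSolvable

/-!
# Chief factors of `p`-soluble groups of `p`-rank at most two (`p` odd)

`chiefBd_top`: in a finite `p`-soluble group in which every elementary abelian `p`-subgroup has
order at most `p ^ 2`, every chief factor of `p`-power order has order at most `p ^ 2`.
-/

set_option autoImplicit false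

namespace Cfsg.Agent.Lib.Helper32

open Subgroup Cfsg

universe u

/-- The case of a cyclic critical subgroup. -/
theorem caseB_chiefBd {X : Type u} [Group X] [Finite X] {p : ℕ} [hp : Fact p.Prime] (hp2 : p ≠ 2)
    (P₀ C : Subgroup X) [hCn : C.Normal] (hP₀ : IsPGroup p P₀) (hCP : C ≤ P₀)
    (hmax : ∀ N : Subgroup X, N.Normal → IsPGroup p N → N ≤ P₀)
    (hcl : ∀ a ∈ C, ∀ x ∈ P₀, a⁻¹ * x⁻¹ * a * x ∈ C ∧ ∀ w ∈ C, Commute (a⁻¹ * x⁻¹ * a * x) w)
    (hself : ∀ x ∈ P₀, (∀ c ∈ C, Commute x c) → x ∈ C)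
    (hpw : ∀ a ∈ C, ∀ w ∈ C, Commute (a ^ p) w)
    (hfaith : ∀ g : X, (∀ c ∈ C, c ^ p = 1 → Commute g c) → ∃ k : ℕ, g ^ p ^ k = 1)
    (hD : Nat.card {c : X // c ∈ C ∧ c ^ p = 1} ≤ p) :
    ChiefBd p (⊥ : Subgroup X) ⊤ := by
  classical
  have hpp : p.Prime := hp.out
  have hCpg : IsPGroup p C := hP₀.to_le hCP
  -- commutators in `C` have order dividing `p`
  have hcp : ∀ u ∈ C, ∀ v ∈ C, (u⁻¹ * v⁻¹ * u * v) ^ p = 1 := by
    intro u hu v hv
    set c₀ := u⁻¹ * v⁻¹ * u * v with hc₀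
    have h1 : Commute c₀ u := (hcl u hu v (hCP hv)).2 u hu
    have h2 : v⁻¹ * u * v = u * c₀ := by rw [hc₀]; group
    have h3 : (v⁻¹ * u * v) ^ p = u ^ p := by
      have h4 : (v⁻¹ * u * v) ^ p = v⁻¹ * u ^ p * v := by
        have h5 := conj_pow (a := v⁻¹) (b := u) (i := p)
        simpa using h5
      rw [h4, mul_assoc, (hpw u hu v hv).eq, ← mul_assoc, inv_mul_cancel, one_mul]
    rw [h2, h1.symm.mul_pow] at h3
    exact mul_eq_left.mp h3
  -- equal `p`-th powers differ by an element of order `p`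
  have hfib : ∀ a ∈ C, ∀ b ∈ C, a ^ p = b ^ p → (a⁻¹ * b) ^ p = 1 := by
    intro a ha b hb hab
    set c := b⁻¹ * a * b * a⁻¹ with hc
    have hc' : c = b⁻¹ * (a⁻¹)⁻¹ * b * a⁻¹ := by rw [hc, inv_inv]
    have h1 := hcl b hb a⁻¹ (hCP (C.inv_mem ha))
    rw [← hc'] at h1
    have h2 : c ^ p = 1 := by
      have h3 := hcp b hb a⁻¹ (C.inv_mem ha)
      rwa [← hc'] at h3
    have hcc : b * a⁻¹ = a⁻¹ * b * c := by rw [hc]; group
    have h5 := Cfsg.Agent.Lib.Helper87.mul_pow_prime_class_two hpp hp2 a⁻¹ b c hcc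
      (h1.2 _ (C.inv_mem ha)) (h1.2 _ hb) h2
    rw [h5, ← hab, inv_pow, inv_mul_cancel]
  -- `C` is cyclic
  haveI : Fintype C := Fintype.ofFinite C
  have hcount : ∀ j : ℕ, (Finset.univ.filter (fun c : C => c ^ p ^ j = 1)).card ≤ p ^ j := by
    intro j
    induction j with
    | zero =>
      have h1 : Finset.univ.filter (fun c : C => c ^ p ^ 0 = 1) ⊆ {1} := by
        intro c hc
        rw [Finset.mem_filter] at hc
        rw [Finset.mem_singleton]
        simpa using hc.2
      simpa using Finset.card_le_card h1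
    | succ j ih =>
      set s := Finset.univ.filter (fun c : C => c ^ p ^ (j + 1) = 1) with hs
      have himg : s.image (fun c : C => c ^ p) ⊆ Finset.univ.filter (fun c : C => c ^ p ^ j = 1) := by
        intro b hb
        rw [Finset.mem_image] at hb
        obtain ⟨c, hc, rfl⟩ := hb
        rw [hs, Finset.mem_filter] at hc
        rw [Finset.mem_filter]
        refine ⟨Finset.mem_univ _, ?_⟩
        rw [← pow_mul, ← pow_succ']
        exact hc.2
      have hfibre : ∀ b ∈ s.image (fun c : C => c ^ p),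
          (s.filter (fun x => x ^ p = b)).card ≤ p := by
        intro b hb
        rw [Finset.mem_image] at hb
        obtain ⟨x₀, -, rfl⟩ := hb
        rw [← Nat.card_eq_finsetCard]
        refine le_trans ?_ hD
        let g : ↥(s.filter (fun x => x ^ p = x₀ ^ p)) → {c : X // c ∈ C ∧ c ^ p = 1} := fun x =>
          ⟨(x₀ : X)⁻¹ * ((x : C) : X), C.mul_mem (C.inv_mem x₀.2) (x : C).2,
            hfib (x₀ : X) x₀.2 ((x : C) : X) (x : C).2 (by
              have h1 := (Finset.mem_filter.1 x.2).2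
              have h2 := congrArg Subtype.val h1
              simpa using h2.symm)⟩
        apply Nat.card_le_card_of_injective g
        intro x y hxy
        have h1 : (x₀ : X)⁻¹ * ((x : C) : X) = (x₀ : X)⁻¹ * ((y : C) : X) :=
          congrArg Subtype.val hxy
        exact Subtype.ext (Subtype.ext (mul_left_cancel h1))
      calc s.card ≤ p * (s.image (fun c : C => c ^ p)).card :=
            Finset.card_le_mul_card_image s p hfibre
        _ ≤ p * p ^ j := Nat.mul_le_mul_left p ((Finset.card_le_card himg).trans ih)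
        _ = p ^ (j + 1) := by ring
  haveI hcyc : IsCyclic C := by
    apply isCyclic_of_card_pow_eq_one_le
    intro n hn
    have h1 : Finset.univ.filter (fun c : C => c ^ n = 1) ⊆
        Finset.univ.filter (fun c : C => c ^ p ^ (n.factorization p) = 1) := by
      intro c hc
      rw [Finset.mem_filter] at hc ⊢
      refine ⟨Finset.mem_univ _, ?_⟩
      obtain ⟨k, hk⟩ := hCpg c
      have h2 : orderOf c ∣ p ^ k := orderOf_dvd_of_pow_eq_one hk
      obtain ⟨i, -, hi⟩ := (Nat.dvd_prime_pow hpp).1 h2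
      have h3 : orderOf c ∣ n := orderOf_dvd_of_pow_eq_one hc.2
      rw [hi] at h3
      have h4 : i ≤ n.factorization p := (hpp.pow_dvd_iff_le_factorization hn.ne').1 h3
      rw [← orderOf_dvd_iff_pow_eq_one, hi]
      exact pow_dvd_pow p h4
    exact (Finset.card_le_card h1).trans ((hcount _).trans (Nat.ordProj_le p hn.ne'))
  -- the centralizer of `C` is `C`
  have hcentC : centralizer (C : Set X) ≤ C := by
    have h1 : IsPGroup p (centralizer (C : Set X)) := by
      rintro ⟨g, hg⟩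
      obtain ⟨k, hk⟩ := hfaith g (fun c hc _ => (mem_centralizer_iff.1 hg c hc).symm)
      exact ⟨k, Subtype.ext hk⟩
    have h2 := hmax _ normal_centralizer h1
    intro g hg
    exact hself g (h2 hg) (fun c hc => (mem_centralizer_iff.1 hg c hc).symm)
  -- automorphisms of `C` commute
  have hautcomm : ∀ α β : MulAut C, α * β = β * α := by
    intro α β
    obtain ⟨m, hm⟩ := MonoidHom.map_cyclic α.toMonoidHom
    ext c
    have h1 : α (β c) = (β c) ^ m := hm (β c)
    have h2 : α c = c ^ m := hm c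
    rw [MulAut.mul_apply, MulAut.mul_apply, h1, h2, map_zpow]
  have hcomm : ∀ g h : X, g * h * g⁻¹ * h⁻¹ ∈ C := by
    intro g h
    apply hcentC
    rw [mem_centralizer_iff]
    intro c hc
    have h1 : MulAut.conjNormal (H := C) (g * h * g⁻¹ * h⁻¹) = 1 := by
      rw [map_mul, map_mul, map_mul, map_inv, map_inv,
        hautcomm (MulAut.conjNormal g) (MulAut.conjNormal h)]
      group
    have h2 := MulAut.conjNormal_apply (H := C) (g * h * g⁻¹ * h⁻¹) ⟨c, hc⟩
    rw [h1, MulAut.one_apply] at h2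
    have h3 : c = (g * h * g⁻¹ * h⁻¹) * c * (g * h * g⁻¹ * h⁻¹)⁻¹ := h2
    calc c * (g * h * g⁻¹ * h⁻¹)
        = ((g * h * g⁻¹ * h⁻¹) * c * (g * h * g⁻¹ * h⁻¹)⁻¹) * (g * h * g⁻¹ * h⁻¹) := by rw [← h3]
      _ = (g * h * g⁻¹ * h⁻¹) * c := by group
  have hall : ∀ L : Subgroup X, C ≤ L → L ≤ ⊤ → L.Normal := by
    intro L hCL _
    refine ⟨fun l hl g => ?_⟩
    have h1 : g * l * g⁻¹ = (g * l * g⁻¹ * l⁻¹) * l := by group
    rw [h1]
    exact L.mul_mem (hCL (hcomm g l)) hl
  have hCab : ∀ z ∈ C, z ^ p = 1 → ∀ t ∈ C, Commute z t := by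
    intro z hz _ t ht
    have h1 := (IsCyclic.isMulCommutative (α := C)).is_comm.comm ⟨z, hz⟩ ⟨t, ht⟩
    exact congrArg Subtype.val h1
  have h1 : ChiefBd p ⊥ C := by
    apply chiefBd_of_pcentral hp2 (Nat.card C) X C hCn le_rfl hCpg hCab
    exact hD.trans (by nlinarith [hpp.two_le])
  have h2 : ChiefBd p C ⊤ := chiefBd_of_forall_normal C ⊤ hall
  exact ChiefBd.trans bot_le le_top h1 h2

theorem chiefBd_top_of_pPrimeCore_eq_bot {X : Type u} [Group X] [Finite X] {p : ℕ}
    [hp : Fact p.Prime] (hp2 : p ≠ 2) (hS : IsPSolvable p X) (hr : PRankLE p 2 X)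
    (h0 : pPrimeCore p X = ⊥) : ChiefBd p (⊥ : Subgroup X) ⊤ := by
  obtain ⟨C, hCn, hCP, hcl, hself, hpw, hfaith⟩ := exists_critical hp2 hS h0
  haveI := hCn
  have hpp : p.Prime := hp.out
  have hP₀ : IsPGroup p (pCore p X) := Cfsg.Agent.Lib.Helper63.pCore_isPGroup' p X
  have hmax : ∀ N : Subgroup X, N.Normal → IsPGroup p N → N ≤ pCore p X := fun N hN hNp =>
    Cfsg.Agent.Lib.Helper63.le_pCore' hN hNp
  have hab : ∀ A : Subgroup X, (∀ a ∈ A, ∀ b ∈ A, Commute a b) → (∀ a ∈ A, a ^ p = 1) →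
      Nat.card A ≤ p ^ 2 := by
    intro A h1 h2
    exact hr A ⟨⟨fun a b => Subtype.ext (h1 a a.2 b b.2).eq⟩⟩ h2
  have hcp : ∀ u ∈ C, ∀ v ∈ C, (u⁻¹ * v⁻¹ * u * v) ^ p = 1 := by
    intro u hu v hv
    set c₀ := u⁻¹ * v⁻¹ * u * v with hc₀
    have h1 : Commute c₀ u := (hcl u hu v (hCP hv)).2 u hu
    have h2 : v⁻¹ * u * v = u * c₀ := by rw [hc₀]; group
    have h3 : (v⁻¹ * u * v) ^ p = u ^ p := by
      have h4 : (v⁻¹ * u * v) ^ p = v⁻¹ * u ^ p * v := by
        have h5 := conj_pow (a := v⁻¹) (b := u) (i := p)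
        simpa using h5
      rw [h4, mul_assoc, (hpw u hu v hv).eq, ← mul_assoc, inv_mul_cancel, one_mul]
    rw [h2, h1.symm.mul_pow] at h3
    exact mul_eq_left.mp h3
  -- the subgroup `D = Ω₁(C)`
  let D : Subgroup X :=
    { carrier := {x | x ∈ C ∧ x ^ p = 1}
      one_mem' := ⟨C.one_mem, one_pow p⟩
      mul_mem' := by
        rintro a b ⟨ha, hap⟩ ⟨hb, hbp⟩
        refine ⟨C.mul_mem ha hb, ?_⟩
        have hc : b * a = a * b * (b⁻¹ * a⁻¹ * b * a) := by group
        have h1 := hcl b hb a (hCP ha)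
        rw [Cfsg.Agent.Lib.Helper87.mul_pow_prime_class_two hpp hp2 a b _ hc (h1.2 a ha)
          (h1.2 b hb) (hcp b hb a ha), hap, hbp, one_mul]
      inv_mem' := by
        rintro a ⟨ha, hap⟩
        exact ⟨C.inv_mem ha, by rw [inv_pow, hap, inv_one]⟩ }
  have hDmem : ∀ x : X, x ∈ D ↔ x ∈ C ∧ x ^ p = 1 := fun x => Iff.rfl
  have hDC : D ≤ C := fun x hx => hx.1
  have hDp : ∀ d ∈ D, d ^ p = 1 := fun d hd => hd.2
  haveI hDn : D.Normal := by
    refine ⟨fun d hd g => ?_⟩
    rw [hDmem] at hd ⊢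
    refine ⟨hCn.conj_mem d hd.1 g, ?_⟩
    rw [conj_pow, hd.2, mul_one, mul_inv_cancel]
  set T := centralizer (D : Set X) with hT
  haveI hTn : T.Normal := normal_centralizer
  have hTp : IsPGroup p T := by
    rintro ⟨g, hg⟩
    obtain ⟨k, hk⟩ := hfaith g (fun c hc hcp' => (mem_centralizer_iff.1 hg c ⟨hc, hcp'⟩).symm)
    exact ⟨k, Subtype.ext hk⟩
  have hTP : T ≤ pCore p X := hmax T hTn hTp
  by_cases hA : ∃ A : Subgroup X, A ≤ D ∧ (∀ a ∈ A, ∀ b ∈ A, Commute a b) ∧ Nat.card A = p ^ 2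
  · obtain ⟨A, hAD, hAab, hAcard⟩ := hA
    have hAp : ∀ a ∈ A, a ^ p = 1 := fun a ha => hDp a (hAD ha)
    have hadj : ∀ z : X, (∀ a ∈ A, Commute z a) → z ^ p = 1 → z ∈ A := by
      intro z hz hzp
      set S₀ : Set X := (A : Set X) ∪ {z} with hS₀def
      have hS₀ : ∀ a ∈ S₀, ∀ b ∈ S₀, Commute a b := by
        rintro a (ha | ha) b (hb | hb)
        · exact hAab a ha b hb
        · rw [Set.mem_singleton_iff.1 hb]; exact (hz a ha).symm
        · rw [Set.mem_singleton_iff.1 ha]; exact hz b hb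
        · rw [Set.mem_singleton_iff.1 ha, Set.mem_singleton_iff.1 hb]
      have h1 := hab (closure S₀) (commute_closure S₀ hS₀) (pow_closure S₀ p hS₀ (by
        rintro a (ha | ha)
        · exact hAp a ha
        · rw [Set.mem_singleton_iff.1 ha]; exact hzp))
      have h2 : A ≤ closure S₀ := fun a ha => subset_closure (Or.inl ha)
      have h3 : A = closure S₀ := eq_of_le_of_card_ge h2 (by rw [hAcard]; exact h1)
      rw [h3]
      exact subset_closure (Or.inr rfl)
    have hΩT : ∀ z ∈ T, z ^ p = 1 → z ∈ A := fun z hz hzp =>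
      hadj z (fun a ha => (mem_centralizer_iff.1 hz a (hAD ha)).symm) hzp
    have hcenT : ∀ z ∈ T, z ^ p = 1 → ∀ t ∈ T, Commute z t := fun z hz hzp t ht =>
      mem_centralizer_iff.1 ht z (hAD (hΩT z hz hzp))
    have hcardΩ : Nat.card {z : X // z ∈ T ∧ z ^ p = 1} ≤ p ^ 2 := by
      rw [← hAcard]
      exact Nat.card_le_card_of_injective
        (fun z => (⟨z.1, hΩT z.1 z.2.1 z.2.2⟩ : A))
        (fun z₁ z₂ h => Subtype.ext (by
          have h' : (⟨z₁.1, hΩT z₁.1 z₁.2.1 z₁.2.2⟩ : A) = ⟨z₂.1, hΩT z₂.1 z₂.2.1 z₂.2.2⟩ := h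
          have h'' : (z₁.1 : X) = z₂.1 := congrArg (fun a : A => (a : X)) h'
          exact h''))
    have hT1 : ChiefBd p ⊥ T :=
      chiefBd_of_pcentral hp2 (Nat.card T) X T hTn le_rfl hTp hcenT hcardΩ
    obtain ⟨S⟩ := (inferInstance : Nonempty (Sylow p X))
    have hPS : pCore p X ≤ S := Cfsg.Agent.Lib.Helper63.pCore_le_sylow' p S
    have hDcl : ∀ a ∈ D, ∀ b ∈ D, a * b * a⁻¹ * b⁻¹ ∈ centralizer (D : Set X) := by
      intro a ha b hb
      have h1 := hcl a⁻¹ (C.inv_mem (hDC ha)) b⁻¹ (hCP (C.inv_mem (hDC hb)))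
      rw [inv_inv, inv_inv] at h1
      rw [mem_centralizer_iff]
      intro d hd
      exact (h1.2 d (hDC hd)).symm.eq
    obtain ⟨hb1, hb2⟩ := caseA_bounds hab D hDp hDcl (S : Subgroup X) S.isPGroup'
      ((hDC.trans hCP).trans hPS) (hTP.trans hPS) A hAD hAab hAcard
    have hT2 : ChiefBd p T (T ⊔ D) := chiefBd_of_not_dvd T (T ⊔ D) hb1
    have hT3 : ChiefBd p (T ⊔ D) ⊤ := by
      apply chiefBd_of_not_dvd
      rw [relIndex_top_right]
      have hle : T ⊔ D ≤ (S : Subgroup X) := sup_le (hTP.trans hPS) ((hDC.trans hCP).trans hPS)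
      rw [← relIndex_mul_index hle]
      intro hdvd
      have h1 : (T ⊔ D).relIndex (S : Subgroup X) ∣ Nat.card (S : Subgroup X) :=
        relIndex_dvd_card _ _
      obtain ⟨e, he⟩ := IsPGroup.iff_card.1 S.isPGroup'
      rw [he] at h1
      obtain ⟨i, -, hi⟩ := (Nat.dvd_prime_pow hpp).1 h1
      rw [hi] at hb2 hdvd
      have hi2 : i ≤ 2 := (Nat.pow_le_pow_iff_right hpp.one_lt).1 hb2
      have h2 : p ^ i * p ∣ p ^ i * (S : Subgroup X).index := by
        refine dvd_trans ?_ hdvd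
        rw [← pow_succ]
        exact pow_dvd_pow p (by omega)
      have h3 : p ∣ (S : Subgroup X).index := Nat.dvd_of_mul_dvd_mul_left (pow_pos hpp.pos i) h2
      exact S.not_dvd_index h3
    haveI : (T ⊔ D).Normal := inferInstance
    exact ChiefBd.trans bot_le le_top hT1 (ChiefBd.trans le_sup_left le_top hT2 hT3)
  · -- no `C_p × C_p` inside `D`: `D` has order at most `p`
    have hDpg : IsPGroup p D := hP₀.to_le (hDC.trans hCP)
    have hDcard : Nat.card D ≤ p := by
      by_contra hcon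
      push_neg at hcon
      apply hA
      have hDne : D ≠ ⊥ := by
        intro h
        rw [h, card_bot] at hcon
        have := hpp.two_le
        omega
      haveI : Nontrivial D := (nontrivial_iff_ne_bot D).2 hDne
      haveI := IsPGroup.center_nontrivial hDpg
      obtain ⟨z, hz⟩ := exists_ne (1 : center D)
      have hzD : ((z : D) : X) ∈ D := (z : D).2
      have hz1 : ((z : D) : X) ≠ 1 := by
        intro h
        apply hz
        apply Subtype.ext
        apply Subtype.ext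
        exact h
      have hzc : ∀ d ∈ D, Commute d ((z : D) : X) := by
        intro d hd
        have h1 := mem_center_iff.1 z.2 ⟨d, hd⟩
        exact congrArg Subtype.val h1
      set z' := ((z : D) : X) with hz'
      have hzord : orderOf z' = p := orderOf_eq_prime (hDp z' hzD) hz1
      have hzx : Nat.card (zpowers z') = p := by rw [Nat.card_zpowers, hzord]
      obtain ⟨x, hxD, hxz⟩ : ∃ x ∈ D, x ∉ zpowers z' := by
        by_contra hcon2
        push_neg at hcon2
        have h1 : D ≤ zpowers z' := hcon2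
        have h2 := Nat.le_of_dvd (by rw [hzx]; exact hpp.pos) (card_dvd_of_le h1)
        rw [hzx] at h2
        omega
      set S₀ : Set X := {z', x} with hS₀def
      have hS₀ : ∀ a ∈ S₀, ∀ b ∈ S₀, Commute a b := by
        intro a ha b hb
        rcases ha with rfl | rfl <;> rcases hb with rfl | rfl
        · exact Commute.refl _
        · exact (hzc _ hxD).symm
        · exact hzc _ hxD
        · exact Commute.refl _
      have hE : closure S₀ ≤ D := (closure_le D).2 (by
        intro w hw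
        rcases hw with rfl | rfl
        · exact hzD
        · exact hxD)
      have hzE : zpowers z' ≤ closure S₀ := (zpowers_le).2 (subset_closure (by simp [hS₀def]))
      have hxE : x ∈ closure S₀ := subset_closure (by simp [hS₀def])
      have hEcard : Nat.card (closure S₀) ≤ p ^ 2 :=
        hab (closure S₀) (commute_closure S₀ hS₀) (fun a ha => hDp a (hE ha))
      obtain ⟨i, hi⟩ := IsPGroup.iff_card.1 (hDpg.to_le hE)
      have hi0 : i ≠ 0 := by
        rintro rfl
        rw [pow_zero] at hi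
        have h1 := card_dvd_of_le hzE
        rw [hi, hzx] at h1
        exact hpp.one_lt.ne' (Nat.dvd_one.1 h1)
      have hi1 : i ≠ 1 := by
        rintro rfl
        have h1 := eq_of_le_of_card_ge hzE (by rw [hi, hzx, pow_one])
        exact hxz (h1 ▸ hxE)
      have hi2 : i ≤ 2 := by
        rw [hi] at hEcard
        exact (Nat.pow_le_pow_iff_right hpp.one_lt).1 hEcard
      have hi2' : i = 2 := by omega
      exact ⟨closure S₀, hE, commute_closure S₀ hS₀, by rw [hi, hi2']⟩
    exact caseB_chiefBd hp2 (pCore p X) C hP₀ hCP hmax hcl hself hpw hfaith hDcard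

theorem pRankLE_quotient {G : Type*} [Group G] [Finite G] {p : ℕ} [hp : Fact p.Prime]
    (N : Subgroup G) [N.Normal] (hN : (Nat.card N).Coprime p) (k : ℕ) (hr : PRankLE p k G) :
    PRankLE p k (G ⧸ N) := by
  intro Abar hcomm hexp
  set f := QuotientGroup.mk' N with hf
  set A₁ := Abar.comap f with hA₁
  obtain ⟨P⟩ := (inferInstance : Nonempty (Sylow p A₁))
  set S' : Subgroup G := (P : Subgroup A₁).map A₁.subtype with hS'
  have hS'p : IsPGroup p S' := P.isPGroup'.map _
  have hS'A : S' ≤ A₁ := map_subtype_le _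
  have hinj : ∀ x ∈ S', ∀ y ∈ S', f x = f y → x = y := by
    intro x hx y hy hxy
    have h1 : x⁻¹ * y ∈ N := (QuotientGroup.eq).1 hxy
    have h2 : x⁻¹ * y ∈ S' := S'.mul_mem (S'.inv_mem hx) hy
    obtain ⟨j, hj⟩ := hS'p ⟨x⁻¹ * y, h2⟩
    have hj' : (x⁻¹ * y) ^ p ^ j = 1 := by
      have h3 := congrArg Subtype.val hj
      simpa using h3
    have h3 : orderOf (x⁻¹ * y) ∣ p ^ j := orderOf_dvd_of_pow_eq_one hj'
    have h4 : orderOf (x⁻¹ * y) ∣ Nat.card N := by
      have h5 := orderOf_dvd_natCard (⟨x⁻¹ * y, h1⟩ : N)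
      rwa [Subgroup.orderOf_mk] at h5
    have h5 : (orderOf (x⁻¹ * y)).Coprime (Nat.card N) :=
      Nat.Coprime.coprime_dvd_left h3 (Nat.Coprime.pow_left j hN.symm)
    have h6 := Nat.Coprime.eq_one_of_dvd h5 h4
    have h7 : x⁻¹ * y = 1 := orderOf_eq_one_iff.1 h6
    exact (inv_mul_eq_one.1 h7)
  have hS'mem : ∀ x ∈ S', f x ∈ Abar := fun x hx => hS'A hx
  have hc : IsMulCommutative S' := by
    refine ⟨⟨fun a b => ?_⟩⟩
    apply Subtype.ext
    apply hinj _ (S'.mul_mem a.2 b.2) _ (S'.mul_mem b.2 a.2)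
    have h2 := hcomm.is_comm.comm ⟨f a, hS'mem a a.2⟩ ⟨f b, hS'mem b b.2⟩
    have h3 := congrArg Subtype.val h2
    simpa [map_mul] using h3
  have he : ∀ a ∈ S', a ^ p = 1 := by
    intro a ha
    apply hinj _ (S'.pow_mem ha p) _ S'.one_mem
    rw [map_pow, map_one]
    exact hexp _ (hS'mem a ha)
  have h1 : Nat.card S' ≤ p ^ k := hr S' hc he
  have hApg : IsPGroup p Abar := fun a =>
    ⟨1, by rw [pow_one]; exact Subtype.ext (by simpa using hexp a a.2)⟩
  obtain ⟨n, hn⟩ := IsPGroup.iff_card.1 hApg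
  have hker : f.ker = N := QuotientGroup.ker_mk' N
  have hNA : N ≤ A₁ := by
    intro x hx
    show f x ∈ Abar
    have hfx : f x = 1 := (QuotientGroup.eq_one_iff x).2 hx
    rw [hfx]
    exact one_mem _
  have h2 : Nat.card Abar = N.relIndex A₁ := by
    rw [← relIndex_bot_left]
    have h4 : (⊥ : Subgroup (G ⧸ N)) = N.map f := by
      symm
      rw [Subgroup.map_eq_bot_iff, hker]
    have h5 : Abar = A₁.map f :=
      (map_comap_eq_self_of_surjective (QuotientGroup.mk'_surjective N) Abar).symm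
    conv_lhs => rw [h4, h5]
    rw [relIndex_map_map, hker, sup_idem, sup_eq_left.2 hNA]
  have h3 : Nat.card N * N.relIndex A₁ = Nat.card A₁ := by
    have h6 := relIndex_mul_relIndex ⊥ N A₁ bot_le hNA
    rwa [relIndex_bot_left, relIndex_bot_left] at h6
  have h4 : p ^ n ∣ Nat.card A₁ := by
    rw [← h3, ← h2, hn]
    exact dvd_mul_left _ _
  have h5 : n ≤ (Nat.card A₁).factorization p :=
    (hp.out.pow_dvd_iff_le_factorization Nat.card_pos.ne').1 h4
  have h6 : Nat.card S' = p ^ (Nat.card A₁).factorization p := by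
    rw [hS', Subgroup.card_map_of_injective A₁.subtype_injective]
    exact P.card_eq_multiplicity
  calc Nat.card Abar = p ^ n := hn
    _ ≤ p ^ (Nat.card A₁).factorization p := Nat.pow_le_pow_right hp.out.pos h5
    _ = Nat.card S' := h6.symm
    _ ≤ p ^ k := h1

/-- In a finite `p`-soluble group of `p`-rank at most two (`p` odd), every chief factor of
`p`-power order has order at most `p ^ 2`. -/
theorem chiefBd_top {G : Type u} [Group G] [Finite G] {p : ℕ} [hp : Fact p.Prime] (hp2 : p ≠ 2)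
    (hG : IsPSolvable p G) (hr : PRankLE p 2 G) : ChiefBd p (⊥ : Subgroup G) ⊤ := by
  set N := pPrimeCore p G with hN
  have hNc : (Nat.card N).Coprime p := Cfsg.Agent.Lib.Helper63.card_pPrimeCore_coprime' p G
  have h1 : ChiefBd p ⊥ N := by
    apply chiefBd_of_not_dvd
    rw [relIndex_bot_left]
    intro h
    exact hp.out.one_lt.ne'
      (Nat.Coprime.eq_one_of_dvd hNc.symm ((dvd_pow_self p (by norm_num)).trans h))
  have h2 : ChiefBd p N ⊤ := by
    apply chiefBd_of_quotient
    rw [map_top_of_surjective _ (QuotientGroup.mk'_surjective N)]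
    exact chiefBd_top_of_pPrimeCore_eq_bot hp2
      (Cfsg.Agent.Lib.Helper69.isPSolvable_of_surj p _ (QuotientGroup.mk'_surjective N) hG)
      (pRankLE_quotient N hNc 2 hr)
      (Cfsg.Agent.Lib.Helper63.pPrimeCore_quotient_eq_bot p G)
  exact ChiefBd.trans bot_le le_top h1 h2

end Cfsg.Agent.Lib.Helper32
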