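import Mathlib
import Cfsg.Agent.Lib.Helper67.SylowLemmas
import Cfsg.Agent.Lib.Helper9.Supersolvable4
import Cfsg.Agent.Lib.Helper1.Tools

/-!
# Groups with squarefree conjugacy class sizes: basics

* `SF G`: all centralizers have squarefree index.
* `sf_subgroup`, `sf_quotient`: inheritance by normal subgroups and quotients.
* `sf_comm_mem_center`: commutators of elements of a Sylow subgroup are central.
-/

set_option autoImplicit false

namespace Cfsg.Agent.Lib.Helper32.Sqf

open scoped commutatorElement

/-- All conjugacy class sizes are squarefree. -/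
def SF (G : Type*) [Group G] : Prop :=
  ∀ x : G, Squarefree (Subgroup.centralizer ({x} : Set G)).index

theorem relIndex_dvd_index_normal {G : Type*} [Group G] [Finite G] (S N : Subgroup G)
    [N.Normal] : S.relIndex N ∣ S.index := by
  rw [← Cfsg.Agent.Lib.Helper9.relIndex_sup_of_normal_right S N]
  exact Subgroup.relIndex_dvd_index_of_le le_sup_right

theorem sf_relIndex {G : Type*} [Group G] [Finite G] (hG : SF G) (N : Subgroup G) [N.Normal]
    (x : G) : Squarefree ((Subgroup.centralizer ({x} : Set G)).relIndex N) :=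
  (hG x).squarefree_of_dvd (relIndex_dvd_index_normal _ N)

theorem sf_subgroup {G : Type*} [Group G] [Finite G] (hG : SF G) (N : Subgroup G) [N.Normal] :
    SF N := by
  intro x
  have h1 : Subgroup.centralizer ({x} : Set N)
      = (Subgroup.centralizer ({(x : G)} : Set G)).subgroupOf N := by
    ext y
    rw [Subgroup.mem_subgroupOf, Subgroup.mem_centralizer_singleton_iff,
      Subgroup.mem_centralizer_singleton_iff]
    constructor
    · intro h
      have := congrArg Subtype.val h
      simpa using this
    · intro h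
      exact Subtype.ext (by simpa using h)
  rw [h1]
  exact sf_relIndex hG N x

theorem sf_quotient {G : Type*} [Group G] [Finite G] (hG : SF G) (N : Subgroup G) [N.Normal] :
    SF (G ⧸ N) := by
  intro y
  obtain ⟨x, rfl⟩ := QuotientGroup.mk_surjective y
  have h1 : Subgroup.centralizer ({x} : Set G)
      ≤ (Subgroup.centralizer ({(x : G ⧸ N)} : Set (G ⧸ N))).comap (QuotientGroup.mk' N) := by
    intro g hg
    rw [Subgroup.mem_comap, Subgroup.mem_centralizer_singleton_iff]
    rw [Subgroup.mem_centralizer_singleton_iff] at hg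
    show (QuotientGroup.mk' N) g * (QuotientGroup.mk' N) x
      = (QuotientGroup.mk' N) x * (QuotientGroup.mk' N) g
    rw [← map_mul, ← map_mul, hg]
  have h2 := Subgroup.index_dvd_of_le h1
  rw [Subgroup.index_comap_of_surjective _ (QuotientGroup.mk'_surjective N)] at h2
  exact (hG x).squarefree_of_dvd h2

/-- In a `p`-group, a subgroup `S` with `|P| ∣ p * |S|` contains all commutators. -/
theorem comm_mem_of_card_dvd {G : Type*} [Group G] [Finite G] {p : ℕ} [Fact p.Prime]
    (P S : Subgroup G) (hP : IsPGroup p P) (hS : S ≤ P) (hcard : Nat.card P ∣ p * Nat.card S)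
    (a b : G) (ha : a ∈ P) (hb : b ∈ P) : ⁅a, b⁆ ∈ S := by
  have hp : p.Prime := Fact.out
  have h1 : Nat.card P = Nat.card S * S.relIndex P :=
    Cfsg.Agent.Lib.Helper1.card_eq_card_mul_relIndex hS
  have h2 : S.relIndex P ∣ p := by
    rw [h1, mul_comm p] at hcard
    exact Nat.dvd_of_mul_dvd_mul_left Nat.card_pos hcard
  rcases (Nat.dvd_prime hp).1 h2 with h3 | h3
  · have h4 : P ≤ S := Subgroup.relIndex_eq_one.1 h3
    exact h4 (Subgroup.commutator_mem_commutator ha hb |> fun h => by
      have : ⁅P, P⁆ ≤ P := Subgroup.commutator_le_self P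
      exact this h)
  · -- index `p`: normal with cyclic quotient
    set S' : Subgroup P := S.subgroupOf P with hS'
    have hidx : S'.index = p := h3
    obtain ⟨k, hk⟩ := IsPGroup.iff_card.1 hP
    have hk0 : k ≠ 0 := by
      intro h0
      rw [h0, pow_zero] at hk
      rw [hk] at h1
      have : S.relIndex P = 1 := Nat.eq_one_of_mul_eq_one_left h1.symm
      rw [this] at h3
      exact hp.one_lt.ne h3
    have hmin : (Nat.card P).minFac = p := by
      rw [hk, Nat.pow_minFac hk0, hp.minFac_eq]
    have hn : S'.Normal := Subgroup.normal_of_index_eq_minFac_card (by rw [hidx, hmin])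
    have hcq : Nat.card (P ⧸ S') = p := hidx
    have hcyc : IsCyclic (P ⧸ S') := isCyclic_of_prime_card hcq
    have hcomm : ∀ u v : P ⧸ S', u * v = v * u := by
      intro u v
      letI := hcyc.commGroup
      exact mul_comm u v
    have h5 : ((⁅(⟨a, ha⟩ : P), ⟨b, hb⟩⁆ : P) : P ⧸ S') = 1 := by
      rw [commutatorElement_def]
      have := hcomm ((⟨a, ha⟩ : P) : P ⧸ S') ((⟨b, hb⟩ : P) : P ⧸ S')
      simp only [QuotientGroup.mk_mul, QuotientGroup.mk_inv]
      rw [this]; group
    have h6 : ⁅(⟨a, ha⟩ : P), ⟨b, hb⟩⁆ ∈ S' := (QuotientGroup.eq_one_iff _).1 h5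
    rw [hS', Subgroup.mem_subgroupOf] at h6
    simpa [commutatorElement_def] using h6

/-- Squarefree class sizes: commutators of elements of a Sylow subgroup are central. -/
theorem sf_comm_mem_center {G : Type*} [Group G] [Finite G] (hG : SF G) {p : ℕ} [Fact p.Prime]
    (P : Sylow p G) (a b : G) (ha : a ∈ P) (hb : b ∈ P) : ⁅a, b⁆ ∈ Subgroup.center G := by
  have hp : p.Prime := Fact.out
  set c := ⁅a, b⁆ with hc
  have key : Subgroup.centralizer ({c} : Set G) = ⊤ := by
    apply Cfsg.Agent.Lib.Helper67.eq_top_of_forall_exists_conj_mem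
    intro x
    set C := Subgroup.centralizer ({x} : Set G) with hC
    obtain ⟨Q₀⟩ : Nonempty (Sylow p C) := inferInstance
    set S : Subgroup G := (Q₀ : Subgroup C).map C.subtype with hSdef
    have hSp : IsPGroup p S := Q₀.isPGroup'.map _
    obtain ⟨P', hP'⟩ := hSp.exists_le_sylow
    obtain ⟨g, hg⟩ := MulAction.exists_smul_eq G P' P
    -- cardinalities
    have hcS : Nat.card S = p ^ (Nat.card C).factorization p := by
      rw [hSdef, Subgroup.card_map_of_injective C.subtype_injective]
      exact Q₀.card_eq_multiplicity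
    have hcP : Nat.card P' = p ^ (Nat.card G).factorization p := P'.card_eq_multiplicity
    have hfac : (Nat.card G).factorization p ≤ (Nat.card C).factorization p + 1 := by
      have h1 : Nat.card G = Nat.card C * C.index := (Subgroup.card_mul_index C).symm
      have h2 : C.index ≠ 0 := Subgroup.index_ne_zero_of_finite
      rw [h1, Nat.factorization_mul Nat.card_pos.ne' h2]
      have h3 := (hG x).natFactorization_le_one p
      simp only [Finsupp.coe_add, Pi.add_apply]
      rw [← hC] at h3
      omega
    have hdvd : Nat.card P' ∣ p * Nat.card S := by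
      rw [hcS, hcP, ← pow_succ']
      exact pow_dvd_pow p hfac
    -- the commutator of the conjugated elements lies in `S`
    have ha' : g⁻¹ * a * g ∈ (P' : Subgroup G) := by
      rw [← Cfsg.Agent.Lib.Helper67.mem_smul_sylow_iff, hg]; exact ha
    have hb' : g⁻¹ * b * g ∈ (P' : Subgroup G) := by
      rw [← Cfsg.Agent.Lib.Helper67.mem_smul_sylow_iff, hg]; exact hb
    have h4 := comm_mem_of_card_dvd (P' : Subgroup G) S P'.2 hP' hdvd _ _ ha' hb'
    have h5 : ⁅g⁻¹ * a * g, g⁻¹ * b * g⁆ = g⁻¹ * c * g := by
      rw [hc, commutatorElement_def, commutatorElement_def]; group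
    rw [h5] at h4
    obtain ⟨q, -, hq⟩ := h4
    have hqC : g⁻¹ * c * g ∈ C := by rw [← hq]; exact q.2
    rw [hC, Subgroup.mem_centralizer_singleton_iff] at hqC
    refine ⟨g, ?_⟩
    rw [Subgroup.mem_centralizer_singleton_iff]
    calc g * x * g⁻¹ * c = g * (x * (g⁻¹ * c * g)) * g⁻¹ := by group
      _ = g * ((g⁻¹ * c * g) * x) * g⁻¹ := by rw [hqC]
      _ = c * (g * x * g⁻¹) := by group
  rw [Subgroup.mem_center_iff]
  intro y
  have hy : y ∈ Subgroup.centralizer ({c} : Set G) := by rw [key]; exact Subgroup.mem_top y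
  rw [Subgroup.mem_centralizer_singleton_iff] at hy
  exact hy

end Cfsg.Agent.Lib.Helper32.Sqf
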