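import Mathlib
import Cfsg.Agent.Lib.Helper1.Tools

/-!
# Automorphisms of finite abelian groups with a fixed subgroup of prime index

For an automorphism `φ` of a finite abelian group `Q` (commutativity given as a hypothesis), with
`delta φ : a ↦ a⁻¹ * φ a`:

* `refl_fpf`: if `φ` has order prime to `q` and fixed subgroup of index `q`, then `φ` fixes no
  nontrivial element of the range of `delta φ` (which has order `q`).
* `refl_range_eq`: two commuting such automorphisms whose product also has fixed subgroup of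
  index dividing `q` have the same `delta`-range.
* `refl_false_of_coprime_pred`: such an automorphism cannot have order prime to `q - 1`.
-/

set_option autoImplicit false

namespace Cfsg.Agent.Lib.Helper32.Sqf

variable {Q : Type*} [Group Q]

/-- The subgroup of fixed points of an automorphism. -/
def fixSub (φ : MulAut Q) : Subgroup Q where
  carrier := {a | φ a = a}
  mul_mem' := by
    intro a b ha hb
    simp only [Set.mem_setOf_eq] at *
    rw [map_mul, ha, hb]
  one_mem' := map_one φ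
  inv_mem' := by
    intro a ha
    simp only [Set.mem_setOf_eq] at *
    rw [map_inv, ha]

theorem mem_fixSub (φ : MulAut Q) (a : Q) : a ∈ fixSub φ ↔ φ a = a := Iff.rfl

/-- The endomorphism `a ↦ a⁻¹ * φ a` of an abelian group. -/
def delta (hc : ∀ a b : Q, a * b = b * a) (φ : MulAut Q) : Q →* Q :=
  MonoidHom.mk' (fun a => a⁻¹ * φ a) (by
    intro a b
    rw [map_mul, mul_inv_rev]
    calc b⁻¹ * a⁻¹ * (φ a * φ b) = a⁻¹ * (b⁻¹ * φ a) * φ b := by rw [hc b⁻¹ a⁻¹]; group
      _ = a⁻¹ * (φ a * b⁻¹) * φ b := by rw [hc b⁻¹ (φ a)]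
      _ = a⁻¹ * φ a * (b⁻¹ * φ b) := by group)

theorem delta_apply (hc : ∀ a b : Q, a * b = b * a) (φ : MulAut Q) (a : Q) :
    delta hc φ a = a⁻¹ * φ a := rfl

theorem ker_delta (hc : ∀ a b : Q, a * b = b * a) (φ : MulAut Q) :
    (delta hc φ).ker = fixSub φ := by
  ext a
  rw [MonoidHom.mem_ker, delta_apply, mem_fixSub, inv_mul_eq_one, eq_comm]

theorem card_range_delta (hc : ∀ a b : Q, a * b = b * a) (φ : MulAut Q) :
    Nat.card (delta hc φ).range = (fixSub φ).index := by
  rw [← ker_delta hc φ, Subgroup.index_ker]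

/-- `ψ` commuting with `φ` commutes with `delta φ`. -/
theorem delta_comm (hc : ∀ a b : Q, a * b = b * a) (φ ψ : MulAut Q) (hcomm : φ * ψ = ψ * φ)
    (a : Q) : ψ (delta hc φ a) = delta hc φ (ψ a) := by
  rw [delta_apply, delta_apply, map_mul, map_inv]
  have : ψ (φ a) = φ (ψ a) := by
    have h := congrArg (fun f : MulAut Q => f a) hcomm
    simp only [MulAut.mul_apply] at h
    exact h.symm
  rw [this]

theorem map_mem_range_delta (hc : ∀ a b : Q, a * b = b * a) (φ ψ : MulAut Q)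
    (hcomm : φ * ψ = ψ * φ) (ℓ : Q) (hℓ : ℓ ∈ (delta hc φ).range) :
    ψ ℓ ∈ (delta hc φ).range := by
  obtain ⟨a, rfl⟩ := hℓ
  exact ⟨ψ a, (delta_comm hc φ ψ hcomm a).symm⟩

/-- A subgroup of prime order is generated by any nontrivial element. -/
theorem eq_zpowers_of_prime_card [Finite Q] {q : ℕ} (hq : q.Prime) (H : Subgroup Q)
    (hH : Nat.card H = q) (t : Q) (ht : t ∈ H) (ht1 : t ≠ 1) : H = Subgroup.zpowers t := by
  have hle : Subgroup.zpowers t ≤ H := Subgroup.zpowers_le.2 ht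
  have h1 : Nat.card (Subgroup.zpowers t) ∣ q := hH ▸ Subgroup.card_dvd_of_le hle
  rcases (Nat.dvd_prime hq).1 h1 with h2 | h2
  · exfalso
    rw [Nat.card_zpowers, orderOf_eq_one_iff] at h2
    exact ht1 h2
  · exact (Subgroup.eq_of_le_of_card_ge hle (by rw [hH, h2])).symm

variable [Finite Q]

/-- If `φ` fixes the range of `delta φ` pointwise and has order prime to the (prime) order of
that range, then `delta φ` is trivial. -/
theorem delta_eq_one_of_fix (hc : ∀ a b : Q, a * b = b * a) (q : ℕ) (φ : MulAut Q)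
    (hcop : (orderOf φ).Coprime q) (hq : ∀ a : Q, (delta hc φ a) ^ q = 1)
    (hfix : ∀ a : Q, φ (delta hc φ a) = delta hc φ a) (a : Q) : delta hc φ a = 1 := by
  have hφa : φ a = a * delta hc φ a := by rw [delta_apply]; group
  have hpow : ∀ j : ℕ, (φ ^ j) a = a * (delta hc φ a) ^ j := by
    intro j
    induction j with
    | zero => simp
    | succ j ih =>
      rw [pow_succ', MulAut.mul_apply, ih, map_mul, map_pow, hfix a, hφa, pow_succ']
      group
  have h1 := hpow (orderOf φ)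
  rw [pow_orderOf_eq_one, MulAut.one_apply] at h1
  have h2 : (delta hc φ a) ^ orderOf φ = 1 := by
    have := mul_left_cancel (a := a) (b := 1) (c := (delta hc φ a) ^ orderOf φ)
      (by rw [mul_one]; exact h1)
    exact this.symm
  exact (pow_eq_one_iff_of_coprime hcop).1 ⟨h2, hq a⟩

theorem refl_fpf (hc : ∀ a b : Q, a * b = b * a) (q : ℕ) [Fact q.Prime] (φ : MulAut Q)
    (hcop : (orderOf φ).Coprime q) (hidx : (fixSub φ).index = q) :
    ∀ ℓ ∈ (delta hc φ).range, φ ℓ = ℓ → ℓ = 1 := by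
  have hq : q.Prime := Fact.out
  intro ℓ hℓ hfix
  by_contra hne
  have hcard : Nat.card (delta hc φ).range = q := by rw [card_range_delta, hidx]
  have hz := eq_zpowers_of_prime_card hq _ hcard ℓ hℓ hne
  have hfix' : ∀ a : Q, φ (delta hc φ a) = delta hc φ a := by
    intro a
    have h1 : delta hc φ a ∈ Subgroup.zpowers ℓ := by rw [← hz]; exact ⟨a, rfl⟩
    obtain ⟨k, hk⟩ := Subgroup.mem_zpowers_iff.1 h1
    rw [← hk, map_zpow, hfix]
  have hq' : ∀ a : Q, (delta hc φ a) ^ q = 1 := by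
    intro a
    have h1 : (⟨delta hc φ a, ⟨a, rfl⟩⟩ : (delta hc φ).range) ^ Nat.card (delta hc φ).range = 1 :=
      pow_card_eq_one'
    rw [hcard] at h1
    exact congrArg Subtype.val h1
  have h3 : ∀ a : Q, delta hc φ a = 1 := delta_eq_one_of_fix hc q φ hcop hq' hfix'
  have h4 : (fixSub φ) = ⊤ := by
    rw [← ker_delta hc φ, MonoidHom.ker_eq_top_iff]
    ext a
    exact h3 a
  rw [h4, Subgroup.index_top] at hidx
  exact hq.one_lt.ne hidx

theorem refl_range_eq (hc : ∀ a b : Q, a * b = b * a) (q : ℕ) [Fact q.Prime] (φ ψ : MulAut Q)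
    (hcomm : φ * ψ = ψ * φ) (hφ : (orderOf φ).Coprime q) (hψ : (orderOf ψ).Coprime q)
    (hiφ : (fixSub φ).index = q) (hiψ : (fixSub ψ).index = q)
    (hiφψ : (fixSub (φ * ψ)).index ∣ q) : (delta hc φ).range = (delta hc ψ).range := by
  have hq : q.Prime := Fact.out
  have hcφ : Nat.card (delta hc φ).range = q := by rw [card_range_delta, hiφ]
  have hcψ : Nat.card (delta hc ψ).range = q := by rw [card_range_delta, hiψ]
  by_cases hB : ∃ ℓ ∈ (delta hc φ).range, ψ ℓ ≠ ℓ
  · obtain ⟨ℓ, hℓ, hne⟩ := hB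
    have ht1 : delta hc ψ ℓ ≠ 1 := by
      rw [delta_apply]
      intro h
      exact hne (inv_mul_eq_one.1 h).symm
    have ht2 : delta hc ψ ℓ ∈ (delta hc φ).range := by
      rw [delta_apply]
      exact Subgroup.mul_mem _ (Subgroup.inv_mem _ hℓ) (map_mem_range_delta hc φ ψ hcomm ℓ hℓ)
    rw [eq_zpowers_of_prime_card hq _ hcφ _ ht2 ht1,
      eq_zpowers_of_prime_card hq _ hcψ _ ⟨ℓ, rfl⟩ ht1]
  · exfalso
    push Not at hB
    -- decomposition
    have hdisj : Disjoint (fixSub φ) (delta hc φ).range := by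
      rw [Subgroup.disjoint_def]
      intro x hx1 hx2
      exact refl_fpf hc q φ hφ hiφ x hx2 hx1
    have hcompl : Subgroup.IsComplement' (fixSub φ) (delta hc φ).range := by
      apply Subgroup.isComplement'_of_card_mul_and_disjoint _ hdisj
      rw [hcφ, ← hiφ, Subgroup.card_mul_index]
    have hle : fixSub (φ * ψ) ≤ fixSub φ ⊓ fixSub ψ := by
      intro a ha
      rw [mem_fixSub, MulAut.mul_apply] at ha
      obtain ⟨⟨⟨e, he⟩, ⟨ℓ, hℓ⟩⟩, hx, -⟩ := (Subgroup.isComplement_iff_existsUnique.1 hcompl) a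
      simp only at hx
      have hψℓ : ψ ℓ = ℓ := hB ℓ hℓ
      have hψe : ψ e ∈ fixSub φ := by
        rw [mem_fixSub]
        have h := congrArg (fun f : MulAut Q => f e) hcomm
        simp only [MulAut.mul_apply] at h
        rw [h, (mem_fixSub φ e).1 he]
      have h1 : ψ e * φ ℓ = e * ℓ := by
        rw [← hx, map_mul, map_mul, hψℓ, (mem_fixSub φ _).1 hψe] at ha
        exact ha
      have h2 : e⁻¹ * ψ e = ℓ * (φ ℓ)⁻¹ := by
        calc e⁻¹ * ψ e = e⁻¹ * (ψ e * φ ℓ) * (φ ℓ)⁻¹ := by group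
          _ = ℓ * (φ ℓ)⁻¹ := by rw [h1]; group
      have h3 : e⁻¹ * ψ e ∈ fixSub φ := Subgroup.mul_mem _ (Subgroup.inv_mem _ he) hψe
      have h4 : ℓ * (φ ℓ)⁻¹ ∈ (delta hc φ).range :=
        Subgroup.mul_mem _ hℓ (Subgroup.inv_mem _ (map_mem_range_delta hc φ φ rfl ℓ hℓ))
      have h5 : ℓ * (φ ℓ)⁻¹ = 1 := by
        apply Subgroup.disjoint_def.1 hdisj _ h4
        rw [← h2]; exact h3
      have h6 : φ ℓ = ℓ := (mul_inv_eq_one.1 h5).symm
      have h7 : ℓ = 1 := refl_fpf hc q φ hφ hiφ ℓ hℓ h6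
      have h8 : ψ e = e := by
        rw [h5] at h2
        exact (inv_mul_eq_one.1 h2).symm
      rw [← hx, h7, mul_one]
      exact Subgroup.mem_inf.2 ⟨he, h8⟩
    -- a nontrivial element of the range, fixed by ψ, not by φ
    have hne : ∃ ℓ ∈ (delta hc φ).range, ℓ ≠ 1 := by
      by_contra hcon
      push Not at hcon
      have : (delta hc φ).range = ⊥ := by
        rw [eq_bot_iff]
        intro x hx
        rw [Subgroup.mem_bot]; exact hcon x hx
      rw [this, Subgroup.card_bot] at hcφ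
      exact hq.one_lt.ne hcφ
    obtain ⟨ℓ, hℓ, hℓ1⟩ := hne
    have hlt : fixSub φ ⊓ fixSub ψ < fixSub ψ := by
      refine lt_of_le_of_ne inf_le_right ?_
      intro heq
      have h1 : ℓ ∈ fixSub ψ := hB ℓ hℓ
      rw [← heq] at h1
      exact hℓ1 (refl_fpf hc q φ hφ hiφ ℓ hℓ (Subgroup.mem_inf.1 h1).1)
    have hcard1 : Nat.card (fixSub (φ * ψ)) < Nat.card (fixSub ψ) :=
      lt_of_le_of_lt (Subgroup.card_le_of_le hle) (Cfsg.Agent.Lib.Helper1.card_lt_card_of_lt hlt)
    have hcard2 : Nat.card (fixSub ψ) * q = Nat.card Q := by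
      rw [← hiψ, Subgroup.card_mul_index]
    have hcard3 : Nat.card (fixSub (φ * ψ)) * (fixSub (φ * ψ)).index = Nat.card Q :=
      Subgroup.card_mul_index _
    have hcard4 : (fixSub (φ * ψ)).index ≤ q := Nat.le_of_dvd hq.pos hiφψ
    have : Nat.card (fixSub (φ * ψ)) * (fixSub (φ * ψ)).index < Nat.card (fixSub ψ) * q :=
      calc Nat.card (fixSub (φ * ψ)) * (fixSub (φ * ψ)).index
          ≤ Nat.card (fixSub (φ * ψ)) * q := Nat.mul_le_mul_left _ hcard4
        _ < Nat.card (fixSub ψ) * q := Nat.mul_lt_mul_of_pos_right hcard1 hq.pos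
    rw [hcard2, hcard3] at this
    exact lt_irrefl _ this

theorem refl_false_of_coprime_pred (hc : ∀ a b : Q, a * b = b * a) (q : ℕ) [Fact q.Prime]
    (φ : MulAut Q) (hφ : (orderOf φ).Coprime q) (hφ' : (orderOf φ).Coprime (q - 1))
    (hiφ : (fixSub φ).index = q) : False := by
  have hq : q.Prime := Fact.out
  have hcφ : Nat.card (delta hc φ).range = q := by rw [card_range_delta, hiφ]
  have hne : ∃ ℓ ∈ (delta hc φ).range, ℓ ≠ 1 := by
    by_contra hcon
    push Not at hcon
    have : (delta hc φ).range = ⊥ := by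
      rw [eq_bot_iff]
      intro x hx
      rw [Subgroup.mem_bot]; exact hcon x hx
    rw [this, Subgroup.card_bot] at hcφ
    exact hq.one_lt.ne hcφ
  obtain ⟨ℓ, hℓ, hℓ1⟩ := hne
  have hz := eq_zpowers_of_prime_card hq _ hcφ ℓ hℓ hℓ1
  have hord : orderOf ℓ = q := by
    rw [← Nat.card_zpowers, ← hz, hcφ]
  have h1 : φ ℓ ∈ Subgroup.zpowers ℓ := by
    rw [← hz]; exact map_mem_range_delta hc φ φ rfl ℓ hℓ
  rw [← mem_powers_iff_mem_zpowers] at h1
  obtain ⟨i, hi⟩ := (Submonoid.mem_powers_iff _ _).1 h1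
  have hpow : ∀ j : ℕ, (φ ^ j) ℓ = ℓ ^ (i ^ j) := by
    intro j
    induction j with
    | zero => simp
    | succ j ih =>
      rw [pow_succ', MulAut.mul_apply, ih, map_pow, ← hi, ← pow_mul, ← pow_succ']
  have h2 := hpow (orderOf φ)
  rw [pow_orderOf_eq_one, MulAut.one_apply] at h2
  have h3 : ℓ ^ 1 = ℓ ^ (i ^ orderOf φ) := by rw [pow_one]; exact h2
  rw [pow_eq_pow_iff_modEq, hord] at h3
  have h4 : ((i : ZMod q)) ^ orderOf φ = 1 := by
    have := (ZMod.natCast_eq_natCast_iff _ _ q).2 h3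
    rw [Nat.cast_one, Nat.cast_pow] at this
    exact this.symm
  have h5 : (i : ZMod q) ≠ 0 := by
    intro h0
    rw [ZMod.natCast_eq_zero_iff] at h0
    obtain ⟨c, hc'⟩ := h0
    have : φ ℓ = 1 := by
      rw [← hi, hc', pow_mul, ← hord, pow_orderOf_eq_one, one_pow]
    have h6 : ℓ = 1 := by
      have := congrArg φ.symm this
      simpa using this
    exact hℓ1 h6
  have h6 : (i : ZMod q) ^ (q - 1) = 1 := ZMod.pow_card_sub_one_eq_one h5
  have h7 : (i : ZMod q) = 1 := (pow_eq_one_iff_of_coprime hφ').1 ⟨h4, h6⟩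
  have h8 : i ≡ 1 [MOD q] := by
    rw [← ZMod.natCast_eq_natCast_iff, h7, Nat.cast_one]
  have h9 : φ ℓ = ℓ := by
    rw [← hi]
    have : ℓ ^ i = ℓ ^ 1 := by rw [pow_eq_pow_iff_modEq, hord]; exact h8
    rw [this, pow_one]
  exact hℓ1 (refl_fpf hc q φ hφ hiφ ℓ hℓ h9)

end Cfsg.Agent.Lib.Helper32.Sqf
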