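import Mathlib
import Cfsg.Agent.Lib.Helper32.SqfBasic
import Cfsg.Agent.Lib.Helper32.SqfRefl
import Cfsg.Agent.Lib.Helper1.MinNormal
import Cfsg.Agent.Lib.Helper1.SZConjB
import Cfsg.Agent.Lib.Helper1.FittingOmega
import Cfsg.Agent.Lib.Helper55.Cores
import Cfsg.Agent.Lib.Helper9.Supersolvable2
import Cfsg.Agent.Lib.Helper9.Supersolvable4
import Cfsg.Agent.Lib.Helper71.Fitting

/-!
# Squarefree class sizes: minimal normal subgroups have prime order (solvable case)

* `minNormal_card_prime`: in a solvable group with squarefree class sizes, minimal normal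
  subgroups have prime order.
* `sf_supersolvable`: such a group is supersolvable.
* `sf_commutator_le_fitting`: its derived subgroup lies in the Fitting subgroup.
-/

set_option autoImplicit false

namespace Cfsg.Agent.Lib.Helper32.Sqf

open scoped commutatorElement

universe u

theorem fixSub_conjNormal {G : Type*} [Group G] (N : Subgroup G) [N.Normal] (g : G) :
    fixSub (MulAut.conjNormal g : MulAut N)
      = (Subgroup.centralizer ({g} : Set G)).subgroupOf N := by
  ext a
  rw [mem_fixSub, Subgroup.mem_subgroupOf, Subgroup.mem_centralizer_singleton_iff,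
    Subtype.ext_iff, MulAut.conjNormal_apply]
  constructor
  · intro h
    calc (a : G) * g = (g * a * g⁻¹) * g := by rw [h]
      _ = g * a := by group
  · intro h
    rw [← h]; group

theorem index_fixSub_conjNormal {G : Type*} [Group G] (N : Subgroup G) [N.Normal] (g : G) :
    (fixSub (MulAut.conjNormal g : MulAut N)).index
      = (Subgroup.centralizer ({g} : Set G)).relIndex N := by
  rw [fixSub_conjNormal]; rfl

theorem dvd_prime_of_squarefree_of_dvd_pow {q n k : ℕ} (hq : q.Prime) (hs : Squarefree n)
    (hd : n ∣ q ^ k) : n ∣ q := by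
  obtain ⟨j, -, rfl⟩ := (Nat.dvd_prime_pow hq).1 hd
  rcases Nat.lt_or_ge j 2 with h | h
  · interval_cases j
    · simp
    · simp
  · exfalso
    have h1 : q * q ∣ q ^ j := by
      rw [← pow_two]; exact pow_dvd_pow q h
    exact hq.not_isUnit (hs q h1)

/-- Index of the fixed subgroup of a conjugation on a normal `q`-subgroup. -/
theorem index_fixSub_dvd {G : Type*} [Group G] [Finite G] (hG : SF G) {q : ℕ} (hq : q.Prime)
    (N : Subgroup G) [N.Normal] {k : ℕ} (hN : Nat.card N = q ^ k) (g : G) :
    (fixSub (MulAut.conjNormal g : MulAut N)).index ∣ q := by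
  rw [index_fixSub_conjNormal]
  exact dvd_prime_of_squarefree_of_dvd_pow hq (sf_relIndex hG N g)
    (hN ▸ Subgroup.relIndex_dvd_card _ _)

theorem index_fixSub_eq {G : Type*} [Group G] [Finite G] (hG : SF G) {q : ℕ} (hq : q.Prime)
    (N : Subgroup G) [N.Normal] {k : ℕ} (hN : Nat.card N = q ^ k) (g : G)
    (hg : g ∉ Subgroup.centralizer (N : Set G)) :
    (fixSub (MulAut.conjNormal g : MulAut N)).index = q := by
  rcases (Nat.dvd_prime hq).1 (index_fixSub_dvd hG hq N hN g) with h | h
  · exfalso
    apply hg
    rw [index_fixSub_conjNormal, Subgroup.relIndex_eq_one] at h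
    rw [Subgroup.mem_centralizer_iff]
    intro a ha
    have := h ha
    rw [Subgroup.mem_centralizer_singleton_iff] at this
    exact this
  · exact h

theorem conjNormal_eq_one {G : Type*} [Group G] (N : Subgroup G) [N.Normal] (c : G)
    (hc : c ∈ Subgroup.centralizer (N : Set G)) : (MulAut.conjNormal c : MulAut N) = 1 := by
  ext a
  rw [MulAut.conjNormal_apply, MulAut.one_apply]
  rw [Subgroup.mem_centralizer_iff] at hc
  rw [← hc a a.2]; group

theorem orderOf_conjNormal_coprime {G : Type*} [Group G] [Finite G] (N : Subgroup G) [N.Normal]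
    (C : Subgroup G) [C.Normal] (hC : C ≤ Subgroup.centralizer (N : Set G)) {q : ℕ}
    (hq : C.index.Coprime q) (g : G) : (orderOf (MulAut.conjNormal g : MulAut N)).Coprime q := by
  apply Nat.Coprime.coprime_dvd_left _ hq
  apply orderOf_dvd_of_pow_eq_one
  rw [← map_pow]
  exact conjNormal_eq_one N _ (hC (Subgroup.pow_index_mem C g))

/-- In a solvable group with squarefree class sizes, minimal normal subgroups have prime
order. -/
theorem minNormal_card_prime {G : Type*} [Group G] [Finite G] (hG : SF G) [Group.IsSolvable G]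
    (N : Subgroup G) [hNn : N.Normal] (hN : N ≠ ⊥)
    (hmin : ∀ M : Subgroup G, M.Normal → M ≤ N → M = ⊥ ∨ M = N) : (Nat.card N).Prime := by
  obtain ⟨hNc, q, hq, hNq⟩ := Cfsg.Agent.Lib.Helper1.minNormal_elementary N inferInstance hN hmin
  have hqf : Fact q.Prime := ⟨hq⟩
  have hc : ∀ a b : N, a * b = b * a := fun a b => hNc.is_comm.comm a b
  have hNp : IsPGroup q N := by
    rintro ⟨x, hx⟩
    refine ⟨1, ?_⟩
    apply Subtype.ext
    simpa using hNq x hx
  obtain ⟨k, hk⟩ := IsPGroup.iff_card.1 hNp
  by_cases hcen : N ≤ Subgroup.center G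
  · -- central case
    obtain ⟨x, hx, hx1⟩ : ∃ x ∈ N, x ≠ (1 : G) := by
      by_contra hcon
      push Not at hcon
      apply hN
      rw [eq_bot_iff]
      intro x hx
      rw [Subgroup.mem_bot]; exact hcon x hx
    have hn : (Subgroup.zpowers x).Normal :=
      Cfsg.Agent.Lib.Helper9.normal_zpowers_of_mem_center (hcen hx)
    have hle : Subgroup.zpowers x ≤ N := Subgroup.zpowers_le.2 hx
    rcases hmin _ hn hle with h | h
    · exfalso
      apply hx1
      have : x ∈ Subgroup.zpowers x := Subgroup.mem_zpowers x
      rw [h, Subgroup.mem_bot] at this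
      exact this
    · rw [← h, Nat.card_zpowers, orderOf_eq_prime (hNq x hx) hx1]
      exact hq
  · -- non-central case
    have hNZ : N ⊓ Subgroup.center G = ⊥ := by
      rcases hmin (N ⊓ Subgroup.center G) inferInstance inf_le_left with h | h
      · exact h
      · exact absurd (h ▸ inf_le_right) hcen
    set C : Subgroup G := Subgroup.centralizer (N : Set G) with hCdef
    have hCn : C.Normal :=
      Cfsg.Agent.Lib.Helper1.centralizer_normal_of_conj_invariant _
        (fun u x hx => hNn.conj_mem x hx u)
    -- Sylow `q`-subgroups centralize `N`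
    obtain P : Sylow q G := default
    have hNP : N ≤ (P : Subgroup G) :=
      (Cfsg.Agent.Lib.Helper55.le_pCore hNn hNp).trans (Cfsg.Agent.Lib.Helper55.pCore_le_sylow P)
    have hPC : (P : Subgroup G) ≤ C := by
      intro b hb
      rw [hCdef, Subgroup.mem_centralizer_iff]
      intro a ha
      have h1 : ⁅a, b⁆ ∈ Subgroup.center G := sf_comm_mem_center hG P a b (hNP ha) hb
      have h2 : ⁅a, b⁆ ∈ N := by
        rw [commutatorElement_def]
        have : a * b * a⁻¹ * b⁻¹ = a * (b * a⁻¹ * b⁻¹) := by group
        rw [this]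
        exact N.mul_mem ha (hNn.conj_mem _ (N.inv_mem ha) b)
      have h3 : ⁅a, b⁆ ∈ N ⊓ Subgroup.center G := Subgroup.mem_inf.2 ⟨h2, h1⟩
      rw [hNZ, Subgroup.mem_bot] at h3
      exact (commutatorElement_eq_one_iff_mul_comm.1 h3)
    have hCq : C.index.Coprime q := by
      rw [Nat.coprime_comm, Nat.Prime.coprime_iff_not_dvd hq]
      intro h
      exact P.not_dvd_index (h.trans (Subgroup.index_dvd_of_le hPC))
    -- an abelian-over-`C` normal subgroup `B` not in `C`
    have hsol : ∃ n, derivedSeries G n ≤ C := by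
      obtain ⟨n, hn⟩ := (Group.isSolvable_def G).1 inferInstance
      exact ⟨n, hn ▸ bot_le⟩
    classical
    have hfind := Nat.find_spec hsol
    have hn0 : Nat.find hsol ≠ 0 := by
      intro h0
      rw [h0, derivedSeries_zero] at hfind
      apply hcen
      intro a ha
      rw [Subgroup.mem_center_iff]
      intro g
      have : g ∈ C := hfind (Subgroup.mem_top g)
      rw [hCdef, Subgroup.mem_centralizer_iff] at this
      exact (this a ha).symm
    obtain ⟨j, hj⟩ := Nat.exists_eq_succ_of_ne_zero hn0
    have hBnot : ¬ derivedSeries G j ≤ C := Nat.find_min hsol (by rw [hj]; exact Nat.lt_succ_self j)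
    have hBB : ⁅derivedSeries G j, derivedSeries G j⁆ ≤ C := by
      rw [hj, derivedSeries_succ] at hfind
      exact hfind
    obtain ⟨b, hbB, hbC⟩ := SetLike.not_le_iff_exists.1 hBnot
    have hBn : (derivedSeries G j).Normal := inferInstance
    -- the automorphisms
    have hcop : ∀ g : G, (orderOf (MulAut.conjNormal g : MulAut N)).Coprime q :=
      orderOf_conjNormal_coprime N C le_rfl hCq
    have hidx : ∀ g : G, g ∉ C → (fixSub (MulAut.conjNormal g : MulAut N)).index = q :=
      fun g hg => index_fixSub_eq hG hq N hk g hg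
    have hrange : ∀ g : G, (delta hc (MulAut.conjNormal b : MulAut N)).range
        = (delta hc (MulAut.conjNormal (g * b * g⁻¹) : MulAut N)).range := by
      intro g
      have hb'B : g * b * g⁻¹ ∈ derivedSeries G j := hBn.conj_mem b hbB g
      have hb'C : g * b * g⁻¹ ∉ C := by
        intro h
        apply hbC
        have := hCn.conj_mem _ h g⁻¹
        have e : g⁻¹ * (g * b * g⁻¹) * g⁻¹⁻¹ = b := by group
        rwa [e] at this
      apply refl_range_eq hc q _ _ _ (hcop _) (hcop _) (hidx b hbC) (hidx _ hb'C)
      · rw [← map_mul]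
        exact index_fixSub_dvd hG hq N hk _
      · -- the two automorphisms commute
        rw [← map_mul, ← map_mul]
        have e : b * (g * b * g⁻¹) = (g * b * g⁻¹) * b * ⁅b⁻¹, (g * b * g⁻¹)⁻¹⁆ := by
          rw [commutatorElement_def]; group
        rw [e, map_mul (MulAut.conjNormal (H := N))]
        have h1 : ⁅b⁻¹, (g * b * g⁻¹)⁻¹⁆ ∈ C :=
          hBB (Subgroup.commutator_mem_commutator (Subgroup.inv_mem _ hbB)
            (Subgroup.inv_mem _ hb'B))
        rw [conjNormal_eq_one N _ h1, mul_one]
    -- the normal subgroup `L`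
    set L : Subgroup G := (delta hc (MulAut.conjNormal b : MulAut N)).range.map N.subtype
      with hLdef
    have hLn : L.Normal := by
      constructor
      intro ℓ hℓ g
      obtain ⟨ℓ', ⟨a, ha⟩, rfl⟩ := hℓ
      have h1 : (⟨g * a * g⁻¹, hNn.conj_mem a a.2 g⟩ : N) ∈
          (⊤ : Subgroup N) := Subgroup.mem_top _
      have h2 : delta hc (MulAut.conjNormal (g * b * g⁻¹) : MulAut N)
          ⟨g * a * g⁻¹, hNn.conj_mem a a.2 g⟩ ∈
            (delta hc (MulAut.conjNormal b : MulAut N)).range := by
        rw [hrange g]; exact ⟨_, rfl⟩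
      refine ⟨_, h2, ?_⟩
      rw [← ha]
      simp only [Subgroup.coe_subtype, delta_apply, Subgroup.coe_mul, Subgroup.coe_inv,
        MulAut.conjNormal_apply]
      group
    have hLN : L ≤ N := by
      rw [hLdef]
      intro x hx
      obtain ⟨y, -, rfl⟩ := hx
      exact y.2
    have hLcard : Nat.card L = q := by
      rw [hLdef, Subgroup.card_map_of_injective N.subtype_injective, card_range_delta,
        hidx b hbC]
    rcases hmin L hLn hLN with h | h
    · exfalso
      rw [h, Subgroup.card_bot] at hLcard
      exact hq.one_lt.ne hLcard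
    · rw [← h, hLcard]; exact hq

theorem sf_supersolvable_aux (n : ℕ) : ∀ (G : Type u) [Group G] [Finite G], Nat.card G = n →
    SF G → Group.IsSolvable G → Cfsg.IsSupersolvable G := by
  induction n using Nat.strongRecOn with | ind n ih => ?_
  intro G _ _ hn hG hsolv
  rcases subsingleton_or_nontrivial G with hs | hnt
  · exact Cfsg.Agent.Lib.Helper9.isSupersolvable_of_subsingleton
  · obtain ⟨N, hNn, hN, hmin⟩ := Cfsg.Agent.Lib.Helper1.exists_minNormal G
    have hp := minNormal_card_prime hG N hN hmin
    have hcyc : IsCyclic N := isCyclic_of_prime_card rfl (hp := ⟨hp⟩)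
    have hlt : Nat.card (G ⧸ N) < n := by
      rw [← hn]
      exact Cfsg.Agent.Lib.Helper9.card_quotient_lt N hp.one_lt
    have h1 := ih _ hlt (G ⧸ N) rfl (sf_quotient hG N) inferInstance
    exact Cfsg.Agent.Lib.Helper9.isSupersolvable_of_cyclic_normal N h1

theorem sf_supersolvable {G : Type u} [Group G] [Finite G] (hG : SF G)
    (hsolv : Group.IsSolvable G) : Cfsg.IsSupersolvable G :=
  sf_supersolvable_aux _ G rfl hG hsolv

theorem sf_commutator_le_fitting {G : Type u} [Group G] [Finite G] (hG : SF G)
    (hsolv : Group.IsSolvable G) : commutator G ≤ Cfsg.fittingSubgroup G :=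
  Cfsg.Agent.Lib.Helper71.le_fittingSubgroup (commutator G)
    (Cfsg.Agent.Lib.Helper9.isNilpotent_commutator_of_isSupersolvable (sf_supersolvable hG hsolv))

end Cfsg.Agent.Lib.Helper32.Sqf
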