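import Mathlib
import Cfsg.Agent.Lib.Helper32.SqfBasic
import Cfsg.Agent.Lib.Helper25.PNCore
import Cfsg.Agent.Lib.Helper9.Supersolvable3

/-!
# Squarefree class sizes imply solvability

By induction: if the centre is trivial then all Sylow subgroups are abelian, and for the smallest
prime `p` the counting lemma `pn_core` (helper25) gives `N(P) = C(P)`, hence a normal
`p`-complement by Burnside's transfer theorem.
-/

set_option autoImplicit false

namespace Cfsg.Agent.Lib.Helper32.Sqf

open scoped commutatorElement

universe u

theorem sf_solvable_aux (n : ℕ) : ∀ (G : Type u) [Group G] [Finite G], Nat.card G = n →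
    SF G → Group.IsSolvable G := by
  induction n using Nat.strongRecOn with | ind n ih => ?_
  intro G _ _ hn hG
  rcases subsingleton_or_nontrivial G with hs | hnt
  · infer_instance
  by_cases hZ : Subgroup.center G = ⊥
  · have hcard1 : Nat.card G ≠ 1 := Finite.one_lt_card.ne'
    obtain ⟨p, hpdef⟩ : ∃ p : ℕ, p = (Nat.card G).minFac := ⟨_, rfl⟩
    have hp : p.Prime := hpdef ▸ Nat.minFac_prime hcard1
    haveI : Fact p.Prime := ⟨hp⟩
    have hpd : p ∣ Nat.card G := hpdef ▸ Nat.minFac_dvd _
    obtain P : Sylow p G := default
    have hab : ∀ a ∈ P, ∀ b ∈ P, a * b = b * a := by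
      intro a ha b hb
      have := sf_comm_mem_center hG P a b ha hb
      rw [hZ, Subgroup.mem_bot] at this
      exact commutatorElement_eq_one_iff_mul_comm.1 this
    have hmin : ∀ r : ℕ, r.Prime → r ∣ Nat.card G → p ≤ r := fun r hr hrd =>
      hpdef ▸ Nat.minFac_le_of_dvd hr.two_le hrd
    have hsq : ∀ x : G, ¬ p ^ 2 ∣ (Subgroup.centralizer ({x} : Set G)).index := by
      intro x hd
      rw [pow_two] at hd
      exact hp.not_isUnit (hG x p hd)
    have hNC := Cfsg.Agent.Lib.Helper25.PN.pn_core p hmin P hab hsq
    have hcompl : Subgroup.IsComplement' (MonoidHom.transferSylow P hNC).ker P :=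
      MonoidHom.ker_transferSylow_isComplement' P hNC
    have hKcard : Nat.card (MonoidHom.transferSylow P hNC).ker < n := by
      have h1 := hcompl.card_mul_card
      have h2 : 1 < Nat.card P := by
        have h3 : Nat.card P ≠ 1 := fun h =>
          P.ne_bot_of_dvd_card hpd (Subgroup.card_eq_one.1 h)
        have h4 : 0 < Nat.card P := Nat.card_pos
        omega
      have h5 : 0 < Nat.card (MonoidHom.transferSylow P hNC).ker := Nat.card_pos
      rw [← hn, ← h1]
      nlinarith
    haveI hKsolv : Group.IsSolvable (MonoidHom.transferSylow P hNC).ker :=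
      ih _ hKcard _ rfl (sf_subgroup hG _)
    haveI : Group.IsNilpotent P := P.2.isNilpotent
    exact Group.isSolvable_of_ker_le_range (MonoidHom.transferSylow P hNC).ker.subtype
      (MonoidHom.transferSylow P hNC) (by rw [Subgroup.range_subtype])
  · have hlt : Nat.card (G ⧸ Subgroup.center G) < n := by
      rw [← hn]
      apply Cfsg.Agent.Lib.Helper9.card_quotient_lt
      have h3 : Nat.card (Subgroup.center G) ≠ 1 := fun h => hZ (Subgroup.card_eq_one.1 h)
      have h4 : 0 < Nat.card (Subgroup.center G) := Nat.card_pos
      omega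
    haveI h1 : Group.IsSolvable (G ⧸ Subgroup.center G) :=
      ih _ hlt (G ⧸ Subgroup.center G) rfl (sf_quotient hG _)
    haveI h2 : Group.IsSolvable (Subgroup.center G) :=
      Group.isSolvable_of_comm (fun a b => Subtype.ext (by
        have := b.2
        rw [Subgroup.mem_center_iff] at this
        exact this a))
    exact Group.isSolvable_of_ker_le_range (Subgroup.center G).subtype
      (QuotientGroup.mk' (Subgroup.center G))
      (by rw [QuotientGroup.ker_mk', Subgroup.range_subtype])

theorem sf_solvable {G : Type u} [Group G] [Finite G] (hG : SF G) : Group.IsSolvable G :=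
  sf_solvable_aux _ G rfl hG

end Cfsg.Agent.Lib.Helper32.Sqf
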