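import Mathlib
import Cfsg.Agent.Lib.Helper1.Commutator
import Cfsg.Agent.Lib.Helper61.CoprimeAb
import Cfsg.Agent.Lib.Helper61.Coprime

/-!
# Coprime action on a Z-group (all Sylow subgroups cyclic), internal form

`A` normalizes `G`, coprime orders, `G` a Z-group.  Then `K = ⁅G, A⁆` is cyclic, normal in `G`,
meets `C_G(A)` trivially, `G = K C_G(A)`, and `|K|`, `|C_G(A)|` are coprime.
-/

set_option autoImplicit false

namespace Cfsg.Agent.Lib.Helper32

open scoped commutatorElement

/-- Commutators of elements normalizing a cyclic subgroup `D` centralize `D`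
(`Aut D` is abelian). -/
theorem commutator_mem_centralizer_of_isCyclic {X : Type*} [Group X] (D : Subgroup X)
    [hD : IsCyclic D] (x y : X) (hx : x ∈ Subgroup.normalizer (D : Set X))
    (hy : y ∈ Subgroup.normalizer (D : Set X)) :
    ⁅x, y⁆ ∈ Subgroup.centralizer (D : Set X) := by
  let _ := (hD.mulAutMulEquiv _).toMonoidHom.commGroupOfInjective (hD.mulAutMulEquiv _).injective
  have h := Abelianization.commutator_subset_ker D.normalizerMonoidHom
  rw [Subgroup.normalizerMonoidHom_ker] at h
  have h1 : ⁅(⟨x, hx⟩ : Subgroup.normalizer (D : Set X)), ⟨y, hy⟩⁆ ∈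
      commutator (Subgroup.normalizer (D : Set X)) := by
    rw [commutator_def]
    exact Subgroup.commutator_mem_commutator (Subgroup.mem_top _) (Subgroup.mem_top _)
  have h2 := h h1
  rw [Subgroup.mem_subgroupOf] at h2
  exact h2

/-- In a cyclic group, an element `c` with `c ^ p = 1` lies in the subgroup generated by any
element `d` of order `p`. -/
theorem mem_zpowers_of_pow_eq_one_of_isCyclic {P : Type*} [Group P] [Finite P] [IsCyclic P]
    {p : ℕ} (hp : 0 < p) (d c : P) (hd : orderOf d = p) (hc : c ^ p = 1) :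
    c ∈ Subgroup.zpowers d := by
  classical
  have : Fintype P := Fintype.ofFinite P
  have hle := IsCyclic.card_pow_eq_one_le (α := P) hp
  -- zpowers d ⊆ {x | x ^ p = 1}, of card p
  let S : Finset P := Finset.univ.filter (fun a : P => a ^ p = 1)
  let T : Finset P := Finset.univ.filter (fun a : P => a ∈ Subgroup.zpowers d)
  have hTS : T ⊆ S := by
    intro a ha
    simp only [T, S, Finset.mem_filter, Finset.mem_univ, true_and] at ha ⊢
    obtain ⟨k, rfl⟩ := ha
    rw [← zpow_natCast, ← zpow_mul, mul_comm, zpow_mul, zpow_natCast, ← hd, pow_orderOf_eq_one,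
      one_zpow]
  have hT : T.card = p := by
    have h1 : T.card = Nat.card (Subgroup.zpowers d) := by
      rw [Nat.card_eq_fintype_card, Fintype.card_subtype]
    rw [h1, Nat.card_zpowers, hd]
  have hST : S = T := by
    symm
    apply Finset.eq_of_subset_of_card_le hTS
    rw [hT]
    exact hle
  have hcS : c ∈ S := by simp [S, hc]
  rw [hST] at hcS
  simpa [T] using hcS

/-- Coprime action on a Z-group, internal form. -/
theorem zgroup_coprime {X : Type*} [Group X] [Finite X] (A G : Subgroup X)
    (hAG : A ≤ Subgroup.normalizer (G : Set X)) (hcop : (Nat.card A).Coprime (Nat.card G))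
    [hZ : IsZGroup G] :
    ⁅G, A⁆ ≤ G ∧ G ≤ Subgroup.normalizer ((⁅G, A⁆ : Subgroup X) : Set X) ∧
      IsCyclic (⁅G, A⁆ : Subgroup X) ∧
      ⁅G, A⁆ ⊓ Subgroup.centralizer (A : Set X) = ⊥ ∧
      ⁅G, A⁆ ⊔ (G ⊓ Subgroup.centralizer (A : Set X)) = G ∧
      (Nat.card (⁅G, A⁆ : Subgroup X)).Coprime
        (Nat.card (G ⊓ Subgroup.centralizer (A : Set X) : Subgroup X)) := by
  classical
  set K : Subgroup X := ⁅G, A⁆ with hKdef
  have hKG : K ≤ G := Cfsg.Agent.Lib.Helper1.commutator_le_of_le_normalizer hAG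
  have hGK : G ≤ Subgroup.normalizer (K : Set X) :=
    Cfsg.Agent.Lib.Helper1.le_normalizer_commutator_left G A
  have hAK : A ≤ Subgroup.normalizer (K : Set X) :=
    Cfsg.Agent.Lib.Helper1.le_normalizer_commutator_right G A
  have hsolvG : Group.IsSolvable G := inferInstance
  have hsup : K ⊔ (G ⊓ Subgroup.centralizer (A : Set X)) = G :=
    Cfsg.Agent.Lib.Helper1.coprime_commutator_sup_centralizer A G hAG hcop (Or.inr hsolvG)
  have hKK : ⁅K, A⁆ = K :=
    Cfsg.Agent.Lib.Helper1.coprime_commutator_commutator A G hAG hcop (Or.inr hsolvG)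
  have hcopK : (Nat.card A).Coprime (Nat.card K) :=
    hcop.coprime_dvd_right (Subgroup.card_dvd_of_le hKG)
  have hfix : K ⊓ Subgroup.centralizer (A : Set X) ≤ ⁅K, K⁆ :=
    Cfsg.Agent.Lib.Helper61.inf_centralizer_le_commutator_of_commutator_eq K A hAK hcopK hKK
  -- K is a Z-group
  have hZK : IsZGroup K := IsZGroup.of_injective (f := Subgroup.inclusion hKG)
    (Subgroup.inclusion_injective hKG)
  -- the derived subgroup D of K is cyclic
  set D : Subgroup X := ⁅K, K⁆ with hDdef
  have hDcyc : IsCyclic D := by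
    have h1 : IsCyclic (commutator K) := IsZGroup.isCyclic_commutator K
    let f := Subgroup.equivMapOfInjective (commutator K) _ K.subtype_injective
    rw [Subgroup.map_subtype_commutator] at f
    exact isCyclic_of_surjective f f.surjective
  -- K and A normalize D
  have hKD : K ≤ Subgroup.normalizer (D : Set X) := by
    have := Cfsg.Agent.Lib.Helper61.normalizer_inf_le_normalizer_commutator K K
    exact (le_inf Subgroup.le_normalizer Subgroup.le_normalizer).trans this
  have hAD : A ≤ Subgroup.normalizer (D : Set X) := by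
    have := Cfsg.Agent.Lib.Helper61.normalizer_inf_le_normalizer_commutator K K
    exact (le_inf hAK hAK).trans this
  -- K = ⁅K, A⁆ centralizes D
  have hKcD : K ≤ Subgroup.centralizer (D : Set X) := by
    rw [← hKK, Subgroup.commutator_le]
    intro k hk a ha
    exact commutator_mem_centralizer_of_isCyclic D k a (hKD hk) (hAD ha)
  -- hence K is commutative
  have hcomm : ∀ a b : K, a * b = b * a := by
    have hker : (Abelianization.of (G := K)).ker ≤ Subgroup.center K := by
      rw [Abelianization.ker_of]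
      intro z hz
      rw [Subgroup.mem_center_iff]
      intro g
      have hz' : (z : X) ∈ D := by
        have : (commutator K).map K.subtype = ⁅K, K⁆ := Subgroup.map_subtype_commutator K
        rw [hDdef, ← this]
        exact ⟨z, hz, rfl⟩
      have := (Subgroup.mem_centralizer_iff.mp (hKcD g.2)) (z : X) hz'
      exact Subtype.ext this.symm
    have hmc := MonoidHom.isMulCommutative_of_isCyclic_of_ker_le_center Abelianization.of hker
    exact fun a b => hmc.is_comm.comm a b
  have hDbot : D = ⊥ := by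
    rw [hDdef, Subgroup.commutator_eq_bot_iff_le_centralizer]
    intro a ha
    rw [Subgroup.mem_centralizer_iff]
    intro b hb
    have := hcomm ⟨b, hb⟩ ⟨a, ha⟩
    exact congrArg Subtype.val this
  have hKcyc : IsCyclic K := by
    have hnil : Group.IsNilpotent K := by
      rw [Subgroup.nilpotent_iff_lowerCentralSeries]
      refine ⟨1, ?_⟩
      rw [Subgroup.top_lowerCentralSeries_one, eq_bot_iff]
      intro z hz
      have hz' : (z : X) ∈ D := by
        have : (commutator K).map K.subtype = ⁅K, K⁆ := Subgroup.map_subtype_commutator K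
        rw [hDdef, ← this]
        exact ⟨z, hz, rfl⟩
      rw [hDbot, Subgroup.mem_bot] at hz'
      rw [Subgroup.mem_bot]
      exact Subtype.ext hz'
    infer_instance
  have hinf : K ⊓ Subgroup.centralizer (A : Set X) = ⊥ := by
    rw [eq_bot_iff]
    exact hfix.trans (le_of_eq hDbot)
  refine ⟨hKG, hGK, hKcyc, hinf, hsup, ?_⟩
  -- coprimality
  rw [Nat.coprime_iff_gcd_eq_one]
  by_contra hne
  obtain ⟨p, hp, hpd⟩ := Nat.exists_prime_and_dvd hne
  have : Fact p.Prime := ⟨hp⟩
  have hpK : p ∣ Nat.card K := hpd.trans (Nat.gcd_dvd_left _ _)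
  have hpC : p ∣ Nat.card (G ⊓ Subgroup.centralizer (A : Set X) : Subgroup X) :=
    hpd.trans (Nat.gcd_dvd_right _ _)
  obtain ⟨d, hd⟩ := exists_prime_orderOf_dvd_card' p hpK
  obtain ⟨c, hc⟩ := exists_prime_orderOf_dvd_card' p hpC
  have hdG : (d : X) ∈ G := hKG d.2
  have hcG : (c : X) ∈ G := (Subgroup.mem_inf.mp c.2).1
  have hcA : (c : X) ∈ Subgroup.centralizer (A : Set X) := (Subgroup.mem_inf.mp c.2).2
  have hdo : orderOf (d : X) = p := by rw [Subgroup.orderOf_coe]; exact hd
  have hco : orderOf (c : X) = p := by rw [Subgroup.orderOf_coe]; exact hc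
  -- Sylow p-subgroup of G containing c
  let c' : G := ⟨c, hcG⟩
  let d' : G := ⟨d, hdG⟩
  have hc'o : orderOf c' = p := by
    rw [← hco]; exact (Subgroup.orderOf_coe c').symm
  have hd'o : orderOf d' = p := by
    rw [← hdo]; exact (Subgroup.orderOf_coe d').symm
  have hpg : IsPGroup p (Subgroup.zpowers c') := by
    rw [IsPGroup.iff_card]
    exact ⟨1, by rw [Nat.card_zpowers, hc'o, pow_one]⟩
  obtain ⟨P, hP⟩ := hpg.exists_le_sylow
  have hpg2 : IsPGroup p (Subgroup.zpowers d') := by
    rw [IsPGroup.iff_card]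
    exact ⟨1, by rw [Nat.card_zpowers, hd'o, pow_one]⟩
  obtain ⟨Q, hQ⟩ := hpg2.exists_le_sylow
  obtain ⟨g, hg⟩ := MulAction.exists_smul_eq G Q P
  -- e = g d' g⁻¹ ∈ P
  have he : g * d' * g⁻¹ ∈ (P : Subgroup G) := by
    rw [← hg]
    rw [Sylow.coe_subgroup_smul, Subgroup.mem_smul_pointwise_iff_exists]
    exact ⟨d', hQ (Subgroup.mem_zpowers d'), rfl⟩
  have hcP : c' ∈ (P : Subgroup G) := hP (Subgroup.mem_zpowers c')
  have hPcyc : IsCyclic (P : Subgroup G) := inferInstance
  have heo : orderOf (⟨g * d' * g⁻¹, he⟩ : (P : Subgroup G)) = p := by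
    rw [← Subgroup.orderOf_coe]
    show orderOf (g * d' * g⁻¹) = p
    have hsc : SemiconjBy g d' (g * d' * g⁻¹) := by unfold SemiconjBy; group
    rw [← hsc.orderOf_eq]
    exact hd'o
  have hcp : (⟨c', hcP⟩ : (P : Subgroup G)) ^ p = 1 := by
    apply Subtype.ext
    show c' ^ p = 1
    rw [← hc'o, pow_orderOf_eq_one]
  have hmem := mem_zpowers_of_pow_eq_one_of_isCyclic hp.pos
    (⟨g * d' * g⁻¹, he⟩ : (P : Subgroup G)) ⟨c', hcP⟩ heo hcp
  -- so c ∈ K
  obtain ⟨k, hk⟩ := hmem
  have hcK : (c : X) ∈ K := by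
    have h1 : (c : X) = ((g : X) * d * (g : X)⁻¹) ^ k := by
      have := congrArg (fun z : (P : Subgroup G) => ((z : G) : X)) hk
      simpa using this.symm
    rw [h1]
    apply K.zpow_mem
    exact (Subgroup.mem_normalizer_iff.mp (hGK g.2) d).1 d.2
  have hc1 : (c : X) ∈ K ⊓ Subgroup.centralizer (A : Set X) := ⟨hcK, hcA⟩
  rw [hinf, Subgroup.mem_bot] at hc1
  rw [hc1, orderOf_one] at hco
  exact hp.one_lt.ne hco

end Cfsg.Agent.Lib.Helper32
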